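import Cfsg.Agent.H254.FxEvenTI

/-!
# Fixity 4 for alternating groups: the pigeonhole rule for subgroups of `Perm (Fin n)` (for S3002)
-/

set_option autoImplicit false

namespace Cfsg.Agent.H546.Fx

open Equiv Equiv.Perm Cfsg.Agent.H254.Ev

/-- among five elements commuting with `x ∈ H` two lie in the same coset of `H` -/
theorem pigeon {G : Type*} [Group G] [Finite G] {H : Subgroup G} (h : FixLE 4 H) {x : G} (hx : x ∈ H) (hx1 : x ≠ 1)
    (c : Fin 5 → G) (hc : ∀ i, c i * x = x * c i) : ∃ i j, i < j ∧ (c i)⁻¹ * c j ∈ H := by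
  have h1 := h.cent_le hx hx1
  let C := Subgroup.centralizer ({x} : Set G)
  have hcC : ∀ i, c i ∈ C := fun i => Subgroup.mem_centralizer_singleton_iff.2 (hc i)
  let f : Fin 5 → C ⧸ (H.subgroupOf C) := fun i => QuotientGroup.mk ⟨c i, hcC i⟩
  have hni : ¬ Function.Injective f := by
    intro hf
    have h2 := Nat.card_le_card_of_injective f hf
    rw [Nat.card_fin] at h2
    have h3 : Nat.card (C ⧸ (H.subgroupOf C)) = H.relIndex (Subgroup.centralizer ({x} : Set G)) := rfl
    rw [h3] at h2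
    omega
  rw [Function.Injective] at hni
  push Not at hni
  obtain ⟨i, j, hij, hne⟩ := hni
  have key : ∀ i j, f i = f j → (c i)⁻¹ * c j ∈ H := by
    intro i j hij
    have := QuotientGroup.eq.1 hij
    exact this
  rcases lt_or_gt_of_ne hne with h2 | h2
  · exact ⟨i, j, h2, key i j hij⟩
  · exact ⟨j, i, h2, key j i hij.symm⟩

variable {n : ℕ}

/-- the pigeonhole rule for a subgroup of `Perm (Fin n)` -/
def PG (K : Subgroup (Perm (Fin n))) : Prop :=
  ∀ x ∈ K, x ≠ 1 → ∀ c : Fin 5 → Perm (Fin n), (∀ i, Perm.sign (c i) = 1) → (∀ i, c i * x = x * c i) →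
    ∃ i j, i < j ∧ (c i)⁻¹ * c j ∈ K

theorem pg_of_fixLE {H : Subgroup (alternatingGroup (Fin n))} (h : FixLE 4 H) :
    PG (H.map (alternatingGroup (Fin n)).subtype) := by
  rintro _ ⟨x, hx, rfl⟩ hx1 c hs hc
  obtain ⟨i, j, hij, hh⟩ := pigeon h hx (fun h1 => hx1 (by rw [h1, map_one]))
    (fun i => ⟨c i, Perm.mem_alternatingGroup.2 (hs i)⟩) (fun i => Subtype.ext (hc i))
  exact ⟨i, j, hij, _, hh, rfl⟩

/-- conjugation -/
def cj (σ : Perm (Fin n)) (K : Subgroup (Perm (Fin n))) : Subgroup (Perm (Fin n)) :=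
  K.comap (MulAut.conj σ).toMonoidHom

theorem mem_cj {σ g : Perm (Fin n)} {K : Subgroup (Perm (Fin n))} : g ∈ cj σ K ↔ σ * g * σ⁻¹ ∈ K := Iff.rfl

theorem PG.conj {K : Subgroup (Perm (Fin n))} (h : PG K) (σ : Perm (Fin n)) : PG (cj σ K) := by
  intro x hx hx1 c hs hc
  obtain ⟨i, j, hij, hh⟩ := h (σ * x * σ⁻¹) hx (by
    intro h1
    apply hx1
    have : x = σ⁻¹ * (σ * x * σ⁻¹) * σ := by group
    rw [this, h1]; group) (fun i => σ * c i * σ⁻¹) (fun i => by
      rw [Perm.sign_mul, Perm.sign_mul, hs i, mul_one, ← Perm.sign_mul, mul_inv_cancel, Perm.sign_one]) (fun i => by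
      have := hc i
      calc σ * c i * σ⁻¹ * (σ * x * σ⁻¹) = σ * (c i * x) * σ⁻¹ := by group
        _ = σ * (x * c i) * σ⁻¹ := by rw [this]
        _ = _ := by group)
  refine ⟨i, j, hij, ?_⟩
  rw [mem_cj]
  have : σ * ((c i)⁻¹ * c j) * σ⁻¹ = (σ * c i * σ⁻¹)⁻¹ * (σ * c j * σ⁻¹) := by group
  rw [this]; exact hh

theorem PG.five {K : Subgroup (Perm (Fin n))} (h : PG K) {x z : Perm (Fin n)} (hx : x ∈ K) (hx1 : x ≠ 1)
    (hz : z * x = x * z) (hz5 : z ^ 5 = 1) : z ∈ K := by
  have hs : Perm.sign z = 1 := by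
    have h6 := congrArg Perm.sign hz5
    rw [map_pow, Perm.sign_one] at h6
    rcases Int.units_eq_one_or (Perm.sign z) with h7 | h7
    · exact h7
    · rw [h7] at h6
      exact absurd h6 (by decide)
  have hcm : Commute z x := hz
  obtain ⟨i, j, hij, hh⟩ := h x hx hx1 (fun i => z ^ (i : ℕ)) (fun i => by rw [map_pow, hs, one_pow])
    (fun i => (hcm.pow_left i).eq)
  have h1 : (z ^ (i : ℕ))⁻¹ * z ^ (j : ℕ) = z ^ ((j : ℕ) - (i : ℕ)) := by
    have : (i : ℕ) ≤ j := hij.le
    obtain ⟨k, hk⟩ := Nat.exists_eq_add_of_le this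
    rw [hk, pow_add, inv_mul_cancel_left]
    congr 1; omega
  simp only [h1] at hh
  have hlt : (i : ℕ) < j := hij
  have hj5 := j.2
  have hcop : Nat.Coprime ((j : ℕ) - (i : ℕ)) 5 := by
    rw [Nat.coprime_comm, Nat.Prime.coprime_iff_not_dvd (by norm_num)]
    intro hd
    have := Nat.le_of_dvd (by omega) hd
    omega
  obtain ⟨m, hm⟩ := exists_pow_eq_self_of_coprime (x := z) (n := (j : ℕ) - (i : ℕ))
    (hcop.coprime_dvd_right (orderOf_dvd_of_pow_eq_one hz5))
  rw [← hm]
  exact K.pow_mem hh m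

/-- support of size `k` -/
def Sp (k : ℕ) (g : Perm (Fin n)) : Prop := g.support.card = k

theorem conj_of_cycleType {g h : Perm (Fin n)} (hgh : g.cycleType = h.cycleType) : ∃ σ : Perm (Fin n), σ * h * σ⁻¹ = g := by
  have := Perm.isConj_iff_cycleType_eq.2 hgh.symm
  obtain ⟨σ, hσ⟩ := isConj_iff.1 this
  exact ⟨σ, hσ⟩

theorem three_conj {g x0 : Perm (Fin n)} (hg : g.support.card = 3) (hx : x0.support.card = 3) :
    ∃ σ : Perm (Fin n), σ * x0 * σ⁻¹ = g := by
  apply conj_of_cycleType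
  rw [card_support_eq_three_iff] at hg hx
  rw [hg.cycleType, hx.cycleType]

theorem invol_cycleType {g : Perm (Fin n)} (hg : g * g = 1) (hg1 : g ≠ 1) :
    g.cycleType = Multiset.replicate (g.support.card / 2) 2 := by
  have ho : orderOf g = 2 := orderOf_eq_prime (by rw [sq, hg]) hg1
  obtain ⟨m, hm⟩ := Perm.cycleType_prime_order (σ := g) (by rw [ho]; exact Nat.prime_two)
  rw [ho] at hm
  have hs : g.support.card = 2 * (m + 1) := by
    rw [← Perm.sum_cycleType, hm, Multiset.sum_replicate, smul_eq_mul, mul_comm]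
  rw [hm, hs, Nat.mul_div_cancel_left _ (by norm_num)]

theorem invol_conj {g t : Perm (Fin n)} (hg : g * g = 1) (ht : t * t = 1) (hs : g.support.card = t.support.card)
    (ht0 : t.support.card ≠ 0) : ∃ σ : Perm (Fin n), σ * t * σ⁻¹ = g := by
  have ht1 : t ≠ 1 := by rintro rfl; exact ht0 (by rw [Perm.support_one]; rfl)
  have hg1 : g ≠ 1 := by rintro rfl; exact ht0 (by rw [← hs, Perm.support_one]; rfl)
  apply conj_of_cycleType
  rw [invol_cycleType hg hg1, invol_cycleType ht ht1, hs]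

/-- even involutions in degree at most 11 -/
theorem invol_support (h11 : n ≤ 11) {g : Perm (Fin n)} (hg : g * g = 1) (hg1 : g ≠ 1) (hs : Perm.sign g = 1) :
    g.support.card = 4 ∨ g.support.card = 8 := by
  have h1 := invol_cycleType hg hg1
  have ho : orderOf g = 2 := orderOf_eq_prime (by rw [sq, hg]) hg1
  obtain ⟨m, hm⟩ := Perm.cycleType_prime_order (σ := g) (by rw [ho]; exact Nat.prime_two)
  rw [ho] at hm
  have hs2 : g.support.card = 2 * (m + 1) := by
    rw [← Perm.sum_cycleType, hm, Multiset.sum_replicate, smul_eq_mul, mul_comm]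
  have hle : g.support.card ≤ n := by
    have := Finset.card_le_univ g.support
    rwa [Fintype.card_fin] at this
  rw [Perm.sign_of_cycleType, hm, Multiset.sum_replicate, Multiset.card_replicate] at hs
  have hm4 : m ≤ 4 := by omega
  interval_cases m
  · exact absurd hs (by decide)
  · left; omega
  · exact absurd hs (by decide)
  · right; omega
  · exact absurd hs (by decide)

/-- all three-cycles: the alternating group -/
theorem alt_le_of_three {K : Subgroup (Perm (Fin n))} (h : ∀ g : Perm (Fin n), g.support.card = 3 → g ∈ K) :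
    alternatingGroup (Fin n) ≤ K := by
  rw [← Perm.closure_three_cycles_eq_alternating, Subgroup.closure_le]
  intro g hg
  exact h g (card_support_eq_three_iff.2 hg)

/-! ### Propagation of three-cycles -/

/-- every `K` with the pigeonhole rule containing `x0` contains its conjugate by `π` -/
def Pr (x0 π : Perm (Fin n)) : Prop := ∀ K : Subgroup (Perm (Fin n)), PG K → x0 ∈ K → π * x0 * π⁻¹ ∈ K

theorem Pr.mul {x0 π π' : Perm (Fin n)} (h : Pr x0 π) (h' : Pr x0 π') : Pr x0 (π * π') := by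
  intro K hK hx
  have h1 := h' (cj π K) (hK.conj π) (h K hK hx)
  rw [mem_cj] at h1
  have : π * π' * x0 * (π * π')⁻¹ = π * (π' * x0 * π'⁻¹) * π⁻¹ := by group
  rw [this]; exact h1

theorem Pr.of_comm {x0 π : Perm (Fin n)} (h : π * x0 = x0 * π) : Pr x0 π := by
  intro K _ hx
  rw [h, mul_inv_cancel_right]; exact hx

theorem Pr.of_inv {x0 π : Perm (Fin n)} (h : π * x0 = x0⁻¹ * π) : Pr x0 π := by
  intro K _ hx
  rw [h, mul_inv_cancel_right]; exact K.inv_mem hx

theorem Pr.all {m : ℕ} {x0 : Perm (Fin (m + 1))} (h : ∀ i : Fin m, Pr x0 (swap i.castSucc i.succ))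
    (π : Perm (Fin (m + 1))) : Pr x0 π := by
  have h1 : π ∈ Submonoid.closure (Set.range fun i : Fin m => swap i.castSucc i.succ) := by
    rw [Perm.mclosure_swap_castSucc_succ]; trivial
  induction h1 using Submonoid.closure_induction with
  | mem x hx => obtain ⟨i, rfl⟩ := hx; exact h i
  | one => exact Pr.of_comm (by simp)
  | mul x y _ _ hx hy => exact hx.mul hy

theorem alt_le_of_mem_three {x0 : Perm (Fin n)} (hx0 : x0.support.card = 3) (hall : ∀ π, Pr x0 π)
    {K : Subgroup (Perm (Fin n))} (hK : PG K) {g : Perm (Fin n)} (hg : g ∈ K) (hg3 : g.support.card = 3) :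
    alternatingGroup (Fin n) ≤ K := by
  obtain ⟨σ, hσ⟩ := three_conj hg3 hx0
  have h1 : x0 ∈ cj σ K := by rw [mem_cj, hσ]; exact hg
  apply alt_le_of_three
  intro g' hg'
  obtain ⟨τ, hτ⟩ := three_conj hg' hx0
  have h2 := hall (σ⁻¹ * τ) (cj σ K) (hK.conj σ) h1
  rw [mem_cj] at h2
  have : σ * (σ⁻¹ * τ * x0 * (σ⁻¹ * τ)⁻¹) * σ⁻¹ = τ * x0 * τ⁻¹ := by group
  rw [this, hτ] at h2
  exact h2

end Cfsg.Agent.H546.Fx
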