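import Cfsg.Agent.H546.Fx.AltMain

/-!
# `NoEv` for the alternating groups of degree 8, 9, 10, 11 (task 2040, for S3002)
-/

set_option autoImplicit false

namespace Cfsg.Agent.H546.Fx

open Equiv Cfsg.Agent.H254.Ev

variable {n : ℕ}

theorem top_of_alt_le {H : Subgroup (alternatingGroup (Fin n))}
    (h : alternatingGroup (Fin n) ≤ H.map (alternatingGroup (Fin n)).subtype) : H = ⊤ := by
  rw [eq_top_iff]
  intro x _
  obtain ⟨y, hy, hyx⟩ := h x.2
  have : y = x := Subtype.ext hyx
  rwa [← this]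

theorem mem_map_of {H : Subgroup (alternatingGroup (Fin n))} {g : alternatingGroup (Fin n)} (hg : g ∈ H) :
    (g : Perm (Fin n)) ∈ H.map (alternatingGroup (Fin n)).subtype := ⟨g, hg, rfl⟩

/-- the reduction to an involution of type `2^4` in standard position -/
theorem noEv_of (h11 : n ≤ 11) (t4 : Perm (Fin n)) (ht4 : t4 * t4 = 1) (ht8 : t4.support.card = 8)
    (h22 : ∀ K : Subgroup (Perm (Fin n)), PG K → ∀ g ∈ K, g * g = 1 → g.support.card = 4 → alternatingGroup (Fin n) ≤ K)
    (h24 : ∀ H : Subgroup (alternatingGroup (Fin n)), FixLE 4 H → H ≠ ⊤ →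
      (∀ g ∈ H, (g : Perm (Fin n)) * g = 1 → (g : Perm (Fin n)).support.card ≠ 4) →
      ∀ t : alternatingGroup (Fin n), (t : Perm (Fin n)) = t4 → t ∈ H →
      (MulAction.fixedBy (_ ⧸ H) t).ncard = 4 → False) : NoEv (alternatingGroup (Fin n)) := by
  rintro H hH ⟨t, ht2, hfix⟩
  have htop := ne_top_of_exact (k := 4) (by norm_num) hfix
  obtain ⟨a, haH, hfa⟩ := exists_conj_exact (k := 4) (by norm_num) hfix
  obtain ⟨s, hs⟩ : ∃ s, s = a⁻¹ * t * a := ⟨_, rfl⟩
  rw [← hs] at haH hfa
  have htt : t * t = 1 := by rw [← sq, ← ht2]; exact pow_orderOf_eq_one t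
  have ht1 : t ≠ 1 := by rintro rfl; rw [orderOf_one] at ht2; omega
  have hss : s * s = 1 := by
    rw [hs]
    calc a⁻¹ * t * a * (a⁻¹ * t * a) = a⁻¹ * (t * t) * a := by group
      _ = 1 := by rw [htt]; group
  have hs1 : s ≠ 1 := by
    intro h1
    apply ht1
    have : t = a * s * a⁻¹ := by rw [hs]; group
    rw [this, h1]; group
  have hK := pg_of_fixLE hH
  have hno : ∀ g ∈ H, (g : Perm (Fin n)) * g = 1 → (g : Perm (Fin n)).support.card ≠ 4 :=
    fun g hg h1 h2 => htop (top_of_alt_le (h22 _ hK _ (mem_map_of hg) h1 h2))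
  have hsp : (s : Perm (Fin n)) * s = 1 := congrArg Subtype.val hss
  have hsp1 : (s : Perm (Fin n)) ≠ 1 := fun h => hs1 (Subtype.ext h)
  rcases invol_support h11 hsp hsp1 (Perm.mem_alternatingGroup.1 s.2) with h4 | h8
  · exact hno s haH hsp h4
  · obtain ⟨σ, hσ⟩ := invol_conj (t := t4) hsp ht4 (by rw [h8, ht8]) (by rw [ht8]; norm_num)
    let e : MulAut (alternatingGroup (Fin n)) := MulAut.conjNormal σ
    have he : ∀ g : alternatingGroup (Fin n), ((e g : alternatingGroup (Fin n)) : Perm (Fin n)) = σ * g * σ⁻¹ :=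
      fun g => MulAut.conjNormal_apply σ g
    let t' : alternatingGroup (Fin n) := e.symm s
    have het : e t' = s := e.apply_symm_apply s
    have ht' : (t' : Perm (Fin n)) = t4 := by
      have h1 := he t'
      rw [het, ← hσ] at h1
      exact (mul_left_cancel (mul_right_cancel h1)).symm
    refine h24 (H.comap e.toMonoidHom) (fixLE_comap hH e) ?_ ?_ t' ht' ?_ ?_
    · intro h1
      apply htop
      rw [eq_top_iff]
      intro x _
      have : e.symm x ∈ H.comap e.toMonoidHom := by rw [h1]; trivial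
      have h2 : e (e.symm x) ∈ H := this
      rwa [e.apply_symm_apply] at h2
    · intro g hg h1 h2
      refine hno (e g) hg ?_ ?_
      · rw [he]
        calc σ * (g : Perm (Fin n)) * σ⁻¹ * (σ * g * σ⁻¹) = σ * ((g : Perm (Fin n)) * g) * σ⁻¹ := by group
          _ = 1 := by rw [h1]; group
      · rw [he, Perm.card_support_conj]; exact h2
    · change e t' ∈ H
      rw [het]; exact haH
    · rw [ncard_comap, het]; exact hfa

theorem noEv_alt8 : NoEv (alternatingGroup (Fin 8)) :=
  noEv_of (by norm_num) N8.t4 (by decide +kernel) (by decide +kernel)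
    (fun _ hK _ hg h1 h2 => N8.two_two hK hg h1 h2)
    (fun _ hH _ h22 _ htv htH hfix => N8.four_std hH h22 htv htH hfix)

theorem noEv_alt9 : NoEv (alternatingGroup (Fin 9)) :=
  noEv_of (by norm_num) N9.t4 (by decide +kernel) (by decide +kernel)
    (fun _ hK _ hg h1 h2 => N9.two_two hK hg h1 h2)
    (fun _ hH _ h22 _ htv htH hfix => N9.four_std hH h22 htv htH hfix)

theorem noEv_alt10 : NoEv (alternatingGroup (Fin 10)) :=
  noEv_of (by norm_num) (swap 0 1 * swap 2 3 * (swap 4 5 * swap 6 7)) (by decide +kernel) (by decide +kernel)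
    (fun _ hK _ hg h1 h2 => N10.two_two hK hg h1 h2)
    (fun _ hH htop _ t htv htH _ => htop (top_of_alt_le (N10.two_four (pg_of_fixLE hH) (mem_map_of htH)
      (by rw [htv]; decide +kernel) (by rw [htv]; decide +kernel))))

theorem noEv_alt11 : NoEv (alternatingGroup (Fin 11)) :=
  noEv_of (by norm_num) (swap 0 1 * swap 2 3 * (swap 4 5 * swap 6 7)) (by decide +kernel) (by decide +kernel)
    (fun _ hK _ hg h1 h2 => N11.two_two hK hg h1 h2)
    (fun _ hH htop _ t htv htH _ => htop (top_of_alt_le (N11.two_four (pg_of_fixLE hH) (mem_map_of htH)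
      (by rw [htv]; decide +kernel) (by rw [htv]; decide +kernel))))

theorem noEv_alt (n : ℕ) (h8 : 8 ≤ n) (h11 : n ≤ 11) : NoEv (alternatingGroup (Fin n)) := by
  interval_cases n
  · exact noEv_alt8
  · exact noEv_alt9
  · exact noEv_alt10
  · exact noEv_alt11

end Cfsg.Agent.H546.Fx
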