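import Cfsg.Agent.H546.Fx.AltProp

/-!
# Fixity 4 for alternating groups: an involution with exactly four fixed cosets (for S3002)
-/

set_option autoImplicit false
set_option maxRecDepth 10000

namespace Cfsg.Agent.H546.Fx
open Equiv Cfsg.Agent.H254.Ev

section aut

variable {G : Type*} [Group G] {H : Subgroup G} {k : ℕ}

theorem ncard_comap (e : G ≃* G) (g : G) :
    (MulAction.fixedBy (G ⧸ H.comap e.toMonoidHom) g).ncard = (MulAction.fixedBy (G ⧸ H) (e g)).ncard := by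
  have hmk : ∀ a b : G, ((a : G ⧸ H.comap e.toMonoidHom) = (b : G ⧸ H.comap e.toMonoidHom)) ↔
      ((e a : G ⧸ H) = (e b : G ⧸ H)) := by
    intro a b
    rw [QuotientGroup.eq, QuotientGroup.eq, Subgroup.mem_comap]
    change e (a⁻¹ * b) ∈ H ↔ _
    rw [map_mul, map_inv]
  let φ : G ⧸ H.comap e.toMonoidHom → G ⧸ H := Quotient.lift (fun a => (e a : G ⧸ H)) (by
    intro a b hab
    exact (hmk a b).1 (Quotient.sound hab))
  have hφ : ∀ a : G, φ (a : G ⧸ H.comap e.toMonoidHom) = (e a : G ⧸ H) := fun a => rfl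
  have hinj : Function.Injective φ := by
    intro x y hxy
    obtain ⟨a, rfl⟩ := QuotientGroup.mk_surjective x
    obtain ⟨b, rfl⟩ := QuotientGroup.mk_surjective y
    exact (hmk a b).2 hxy
  have himg : φ '' (MulAction.fixedBy (G ⧸ H.comap e.toMonoidHom) g) = MulAction.fixedBy (G ⧸ H) (e g) := by
    ext x
    obtain ⟨b, rfl⟩ := QuotientGroup.mk_surjective x
    obtain ⟨a, rfl⟩ := e.surjective b
    constructor
    · rintro ⟨y, hy, hyx⟩
      obtain ⟨c, rfl⟩ := QuotientGroup.mk_surjective y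
      rw [← hyx, hφ, mk_mem_fixedBy]
      rw [mk_mem_fixedBy, Subgroup.mem_comap] at hy
      have : e (c⁻¹ * g * c) ∈ H := hy
      rwa [map_mul, map_mul, map_inv] at this
    · intro hx
      refine ⟨(a : G ⧸ H.comap e.toMonoidHom), ?_, rfl⟩
      rw [mk_mem_fixedBy, Subgroup.mem_comap]
      rw [mk_mem_fixedBy] at hx
      change e (a⁻¹ * g * a) ∈ H
      rwa [map_mul, map_mul, map_inv]
  rw [← himg, Set.ncard_image_of_injective _ hinj]

theorem fixLE_comap (h : FixLE k H) (e : G ≃* G) : FixLE k (H.comap e.toMonoidHom) := by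
  intro g hg
  rw [ncard_comap]
  exact h _ (fun h1 => hg (by rw [← map_one e] at h1; exact e.injective h1))

theorem mem_normalizer_closure [Finite G] {S : Set G} {z : G} (h : ∀ s ∈ S, z * s * z⁻¹ ∈ Subgroup.closure S) :
    z ∈ Subgroup.normalizer (Subgroup.closure S : Set G) := by
  have h1 : (Subgroup.closure S).map (MulAut.conj z).toMonoidHom ≤ Subgroup.closure S := by
    rw [Subgroup.map_le_iff_le_comap, Subgroup.closure_le]
    intro s hs
    exact h s hs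
  have h2 : (Subgroup.closure S).map (MulAut.conj z).toMonoidHom = Subgroup.closure S := by
    apply Subgroup.eq_of_le_of_card_ge h1
    have h3 : Function.Injective (MulAut.conj z).toMonoidHom := (MulAut.conj z).injective
    rw [← Nat.card_congr ((Subgroup.closure S).equivMapOfInjective _ h3).toEquiv]
  rw [Subgroup.mem_normalizer_iff]
  intro g
  constructor
  · intro hg
    exact h1 ⟨g, hg, rfl⟩
  · intro hg
    have hg2 : z * g * z⁻¹ ∈ (Subgroup.closure S).map (MulAut.conj z).toMonoidHom := by rw [h2]; exact hg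
    obtain ⟨g', hg', he⟩ := hg2
    have : g' = g := by
      have h3 : z * g' * z⁻¹ = z * g * z⁻¹ := he
      exact mul_left_cancel (mul_right_cancel h3)
    rwa [← this]

end aut

set_option synthInstance.maxSize 1000 in
set_option synthInstance.maxHeartbeats 400000 in
theorem s4 : ∀ α β : Perm (Fin 4), α * α = 1 → β * β = 1 → α * β = β * α → α ≠ 1 → β ≠ 1 → α ≠ β →
    (∃ γ, γ * α = β * γ ∧ γ * β = α * β * γ) → ∀ ν, ν * α = α * ν → ν * β = β * ν →
    ν = 1 ∨ ν = α ∨ ν = β ∨ ν = α * β := by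
  decide +kernel

/-! ### Degree 8, type 2^2 -/

namespace N8

/-- abbreviations for degree 8 -/
def t0 : Perm (Fin 8) := swap 0 1 * swap 2 3

theorem v4_a {K : Subgroup (Perm (Fin 8))} (hK : PG K) (h3 : ∀ g ∈ K, g.support.card ≠ 3) (ht : t0 ∈ K) :
    swap 4 5 * swap 6 7 ∈ K := by
  obtain ⟨i, j, hij, hq⟩ := hK t0 ht (by decide +kernel)
    ![1, swap 4 5 * swap 6 7, List.formPerm [4, 5, 6], List.formPerm [4, 5, 6] * (swap 4 5 * swap 6 7), List.formPerm [4, 6, 5]]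
    (by decide +kernel) (by decide +kernel)
  have key : ∀ i j : Fin 5, i < j →
      ((![1, swap 4 5 * swap 6 7, List.formPerm [4, 5, 6], List.formPerm [4, 5, 6] * (swap 4 5 * swap 6 7), List.formPerm [4, 6, 5]] : Fin 5 → Perm (Fin 8)) i)⁻¹ *
        (![1, swap 4 5 * swap 6 7, List.formPerm [4, 5, 6], List.formPerm [4, 5, 6] * (swap 4 5 * swap 6 7), List.formPerm [4, 6, 5]] : Fin 5 → Perm (Fin 8)) j = swap 4 5 * swap 6 7 ∨
      (((![1, swap 4 5 * swap 6 7, List.formPerm [4, 5, 6], List.formPerm [4, 5, 6] * (swap 4 5 * swap 6 7), List.formPerm [4, 6, 5]] : Fin 5 → Perm (Fin 8)) i)⁻¹ *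
        (![1, swap 4 5 * swap 6 7, List.formPerm [4, 5, 6], List.formPerm [4, 5, 6] * (swap 4 5 * swap 6 7), List.formPerm [4, 6, 5]] : Fin 5 → Perm (Fin 8)) j).support.card = 3 := by
    decide +kernel
  rcases key i j hij with h1 | h1
  · rwa [h1] at hq
  · exact absurd h1 (h3 _ hq)

theorem v4_b {K : Subgroup (Perm (Fin 8))} (hK : PG K) (h3 : ∀ g ∈ K, g.support.card ≠ 3) (ht : t0 ∈ K) :
    swap 4 6 * swap 5 7 ∈ K := by
  obtain ⟨i, j, hij, hq⟩ := hK t0 ht (by decide +kernel)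
    ![1, swap 4 6 * swap 5 7, List.formPerm [4, 5, 6], List.formPerm [4, 5, 6] * (swap 4 6 * swap 5 7), List.formPerm [4, 6, 5]]
    (by decide +kernel) (by decide +kernel)
  have key : ∀ i j : Fin 5, i < j →
      ((![1, swap 4 6 * swap 5 7, List.formPerm [4, 5, 6], List.formPerm [4, 5, 6] * (swap 4 6 * swap 5 7), List.formPerm [4, 6, 5]] : Fin 5 → Perm (Fin 8)) i)⁻¹ *
        (![1, swap 4 6 * swap 5 7, List.formPerm [4, 5, 6], List.formPerm [4, 5, 6] * (swap 4 6 * swap 5 7), List.formPerm [4, 6, 5]] : Fin 5 → Perm (Fin 8)) j = swap 4 6 * swap 5 7 ∨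
      (((![1, swap 4 6 * swap 5 7, List.formPerm [4, 5, 6], List.formPerm [4, 5, 6] * (swap 4 6 * swap 5 7), List.formPerm [4, 6, 5]] : Fin 5 → Perm (Fin 8)) i)⁻¹ *
        (![1, swap 4 6 * swap 5 7, List.formPerm [4, 5, 6], List.formPerm [4, 5, 6] * (swap 4 6 * swap 5 7), List.formPerm [4, 6, 5]] : Fin 5 → Perm (Fin 8)) j).support.card = 3 := by
    decide +kernel
  rcases key i j hij with h1 | h1
  · rwa [h1] at hq
  · exact absurd h1 (h3 _ hq)

def cG : Fin 5 → Perm (Fin 8) :=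
  ![1, List.formPerm [4, 5, 6], List.formPerm [4, 6, 5], swap 0 1 * swap 4 5, swap 0 1 * swap 4 6]

theorem exists_odd {K : Subgroup (Perm (Fin 8))} (hK : PG K) (h3 : ∀ g ∈ K, g.support.card ≠ 3) (ht : t0 ∈ K) :
    swap 0 1 * swap 4 5 ∈ K ∨ swap 0 1 * swap 4 6 ∈ K ∨ swap 0 1 * swap 5 6 ∈ K := by
  obtain ⟨i, j, hij, hq⟩ := hK t0 ht (by decide +kernel) cG (by decide +kernel) (by decide +kernel)
  have key : ∀ i j : Fin 5, i < j → (cG i)⁻¹ * cG j = swap 0 1 * swap 4 5 ∨ (cG i)⁻¹ * cG j = swap 0 1 * swap 4 6 ∨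
      (cG i)⁻¹ * cG j = swap 0 1 * swap 5 6 ∨ ((cG i)⁻¹ * cG j).support.card = 3 := by
    decide +kernel
  rcases key i j hij with h1 | h1 | h1 | h1
  · left; rwa [← h1]
  · right; left; rwa [← h1]
  · right; right; rwa [← h1]
  · exact absurd h1 (h3 _ hq)

def cF : Fin 5 → Perm (Fin 8) := ![1, swap 0 1 * swap 4 6, swap 2 4 * swap 4 5 * (swap 3 6 * swap 6 7),
  swap 2 4 * swap 4 5 * (swap 3 6 * swap 6 7) * (swap 0 1 * swap 4 6),
  swap 2 4 * swap 4 5 * (swap 3 6 * swap 6 7) * (swap 2 4 * swap 4 5 * (swap 3 6 * swap 6 7))]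

def uF : Fin 4 → Perm (Fin 8) := ![swap 0 1 * swap 4 5, t0 * (swap 0 1 * swap 4 5),
  swap 0 1 * swap 4 5 * (swap 4 5 * swap 6 7), t0 * (swap 0 1 * swap 4 5) * (swap 4 5 * swap 6 7)]

theorem keyF : ∀ i j : Fin 5, i < j → ∃ l : Fin 4, ((cF i)⁻¹ * cF j * uF l).support.card = 3 ∨
    ((cF i)⁻¹ * cF j * t0 * ((cF i)⁻¹ * cF j)⁻¹ * uF l).support.card = 3 ∨
    (((cF i)⁻¹ * cF j)⁻¹ * t0 * ((cF i)⁻¹ * cF j) * uF l).support.card = 3 := by
  decide +kernel

/-- the final contradiction -/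
theorem final {K : Subgroup (Perm (Fin 8))} (hK : PG K) (h3 : ∀ g ∈ K, g.support.card ≠ 3) (ht : t0 ∈ K)
    (hu : swap 0 1 * swap 4 5 ∈ K) : False := by
  have h1 : swap 4 5 * swap 6 7 ∈ K := v4_a hK h3 ht
  have h2 : swap 4 6 * swap 5 7 ∈ K := v4_b hK h3 ht
  have hU : ∀ l : Fin 4, uF l ∈ K := by
    intro l
    fin_cases l
    · exact hu
    · exact K.mul_mem ht hu
    · exact K.mul_mem hu h1
    · exact K.mul_mem (K.mul_mem ht hu) h1
  obtain ⟨i, j, hij, hq⟩ := hK (t0 * (swap 4 6 * swap 5 7)) (K.mul_mem ht h2) (by decide +kernel)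
    cF (by decide +kernel) (by decide +kernel)
  obtain ⟨l, h4⟩ := keyF i j hij
  have hu2 := hU l
  rcases h4 with h4 | h4 | h4
  · exact h3 _ (K.mul_mem hq hu2) h4
  · exact h3 _ (K.mul_mem (K.mul_mem (K.mul_mem hq ht) (K.inv_mem hq)) hu2) h4
  · exact h3 _ (K.mul_mem (K.mul_mem (K.mul_mem (K.inv_mem hq) ht) hq) hu2) h4

theorem cj_three {K : Subgroup (Perm (Fin 8))} (h3 : ∀ g ∈ K, g.support.card ≠ 3) (σ : Perm (Fin 8)) :
    ∀ g ∈ cj σ K, g.support.card ≠ 3 := by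
  intro g hg h
  rw [mem_cj] at hg
  exact h3 _ hg (by rw [Perm.card_support_conj]; exact h)

theorem std {K : Subgroup (Perm (Fin 8))} (hK : PG K) (h3 : ∀ g ∈ K, g.support.card ≠ 3) (ht : t0 ∈ K) : False := by
  rcases exists_odd hK h3 ht with h | h | h
  · exact final hK h3 ht h
  · refine final (hK.conj (swap 5 6)) (cj_three h3 _) ?_ ?_
    · rw [mem_cj]
      have : swap 5 6 * t0 * (swap 5 6)⁻¹ = t0 := by decide +kernel
      rw [this]; exact ht
    · rw [mem_cj]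
      have : swap 5 6 * (swap 0 1 * swap 4 5) * (swap 5 6)⁻¹ = (swap 0 1 * swap 4 6 : Perm (Fin 8)) := by decide +kernel
      rw [this]; exact h
  · refine final (hK.conj (swap 4 6)) (cj_three h3 _) ?_ ?_
    · rw [mem_cj]
      have : swap 4 6 * t0 * (swap 4 6)⁻¹ = t0 := by decide +kernel
      rw [this]; exact ht
    · rw [mem_cj]
      have : swap 4 6 * (swap 0 1 * swap 4 5) * (swap 4 6)⁻¹ = (swap 0 1 * swap 5 6 : Perm (Fin 8)) := by decide +kernel
      rw [this]; exact h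

theorem two_two {K : Subgroup (Perm (Fin 8))} (hK : PG K) {g : Perm (Fin 8)} (hg : g ∈ K) (hg2 : g * g = 1)
    (hg4 : g.support.card = 4) : alternatingGroup (Fin 8) ≤ K := by
  by_contra hcon
  have h3 : ∀ g ∈ K, g.support.card ≠ 3 := fun g hg h => hcon (alt_le hK hg h)
  obtain ⟨σ, hσ⟩ := invol_conj (t := t0) hg2 (by decide +kernel)
    (by rw [hg4]; decide +kernel) (by decide +kernel)
  exact std (hK.conj σ) (cj_three h3 σ) (by rw [mem_cj, hσ]; exact hg)

end N8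

/-! ### Degree 8, type 2^4 -/

namespace N8

/-- the standard involution of type `2^4` -/
def t4 : Perm (Fin 8) := swap 0 1 * swap 2 3 * (swap 4 5 * swap 6 7)

theorem four_std {H : Subgroup (alternatingGroup (Fin 8))} (hH : FixLE 4 H)
    (h22 : ∀ g ∈ H, (g : Perm (Fin 8)) * g = 1 → (g : Perm (Fin 8)).support.card ≠ 4) {t : alternatingGroup (Fin 8)}
    (htv : (t : Perm (Fin 8)) = t4) (htH : t ∈ H)
    (hfix : (MulAction.fixedBy (_ ⧸ H) t).ncard = 4) : False := by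
  have ht1 : t ≠ 1 := by
    intro h1
    rw [h1] at htv
    exact absurd htv (by decide +kernel : ((1 : alternatingGroup (Fin 8)) : Perm (Fin 8)) ≠ t4)
  obtain ⟨D, hD, htD⟩ := hH.exists_ti (by norm_num) le_rfl htH ht1 hfix
  obtain ⟨f, hf⟩ := hD.hom
  -- elements commuting with `t`
  have hN : ∀ g : alternatingGroup (Fin 8), (g : Perm (Fin 8)) * t4 = t4 * (g : Perm (Fin 8)) → g ∈ Subgroup.normalizer (D : Set (alternatingGroup (Fin 8))) := by
    intro g hg
    refine hD.cent htD ht1 (Subtype.ext ?_)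
    change (g : Perm (Fin 8)) * t = t * g
    rw [htv]; exact hg
  let mk : (g : Perm (Fin 8)) → Perm.sign g = 1 → alternatingGroup (Fin 8) := fun g hg => ⟨g, Perm.mem_alternatingGroup.2 hg⟩
  let a := mk (swap 0 1 * swap 2 3) (by decide +kernel)
  let b := mk (swap 0 1 * swap 4 5) (by decide +kernel)
  let y := mk (swap 2 4 * swap 4 6 * (swap 3 5 * swap 5 7)) (by decide +kernel)
  let v := mk (swap 0 2 * swap 1 3 * (swap 4 6 * swap 5 7)) (by decide +kernel)
  let r := mk (swap 0 2 * swap 1 3) (by decide +kernel)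
  have haN := hN a (by decide +kernel)
  have hbN := hN b (by decide +kernel)
  have hyN := hN y (by decide +kernel)
  have hvN := hN v (by decide +kernel)
  have hrN := hN r (by decide +kernel)
  have htN := hN t (by rw [htv])
  have hft : f ⟨t, htN⟩ = 1 := (hf _).2 htD
  have bad : ∀ g : alternatingGroup (Fin 8), (hg : g ∈ Subgroup.normalizer (D : Set (alternatingGroup (Fin 8)))) →
      (g : Perm (Fin 8)) * g = 1 → (g : Perm (Fin 8)).support.card = 4 → f ⟨g, hg⟩ ≠ 1 := by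
    intro g hg h1 h2 h3
    exact h22 g (hD.le ((hf _).1 h3)) h1 h2
  have mulf : ∀ g h k : alternatingGroup (Fin 8), (hg : g ∈ Subgroup.normalizer (D : Set (alternatingGroup (Fin 8)))) →
      (hh : h ∈ Subgroup.normalizer (D : Set (alternatingGroup (Fin 8)))) →
      (hk : k ∈ Subgroup.normalizer (D : Set (alternatingGroup (Fin 8)))) → (g : Perm (Fin 8)) * h = k →
      f ⟨g, hg⟩ * f ⟨h, hh⟩ = f ⟨k, hk⟩ := by
    intro g h k hg hh hk he
    rw [← map_mul]
    congr 1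
    exact Subtype.ext (Subtype.ext he)
  have onef : ∀ g : alternatingGroup (Fin 8), (hg : g ∈ Subgroup.normalizer (D : Set (alternatingGroup (Fin 8)))) →
      (g : Perm (Fin 8)) = 1 → f ⟨g, hg⟩ = 1 := by
    intro g hg he
    have : (⟨g, hg⟩ : ↥(Subgroup.normalizer (D : Set (alternatingGroup (Fin 8))))) = 1 := Subtype.ext (Subtype.ext he)
    rw [this, map_one]
  have mm : ∀ {g h : alternatingGroup (Fin 8)}, g ∈ Subgroup.normalizer (D : Set (alternatingGroup (Fin 8))) →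
      h ∈ Subgroup.normalizer (D : Set (alternatingGroup (Fin 8))) →
      g * h ∈ Subgroup.normalizer (D : Set (alternatingGroup (Fin 8))) := fun h1 h2 => mul_mem h1 h2
  -- the relations
  have f_mul : ∀ g h : alternatingGroup (Fin 8), (hg : g ∈ Subgroup.normalizer (D : Set (alternatingGroup (Fin 8)))) →
      (hh : h ∈ Subgroup.normalizer (D : Set (alternatingGroup (Fin 8)))) →
      f ⟨g * h, mm hg hh⟩ = f ⟨g, hg⟩ * f ⟨h, hh⟩ := fun g h hg hh => (mulf g h _ hg hh _ rfl).symm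
  have rel : ∀ g h : alternatingGroup (Fin 8), (hg : g ∈ Subgroup.normalizer (D : Set (alternatingGroup (Fin 8)))) →
      (hh : h ∈ Subgroup.normalizer (D : Set (alternatingGroup (Fin 8)))) → (g : Perm (Fin 8)) = h → f ⟨g, hg⟩ = f ⟨h, hh⟩ := by
    intro g h hg hh he
    congr 1
    exact Subtype.ext (Subtype.ext he)
  have e1 : f ⟨a, haN⟩ * f ⟨a, haN⟩ = 1 := by
    rw [← f_mul]; exact onef _ _ (by decide +kernel)
  have e2 : f ⟨b, hbN⟩ * f ⟨b, hbN⟩ = 1 := by
    rw [← f_mul]; exact onef _ _ (by decide +kernel)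
  have e3 : f ⟨a, haN⟩ * f ⟨b, hbN⟩ = f ⟨b, hbN⟩ * f ⟨a, haN⟩ := by
    rw [← f_mul, ← f_mul]; exact rel _ _ _ _ (by decide +kernel)
  have e4 : f ⟨a, haN⟩ ≠ 1 := bad _ _ (by decide +kernel) (by decide +kernel)
  have e5 : f ⟨b, hbN⟩ ≠ 1 := bad _ _ (by decide +kernel) (by decide +kernel)
  have e6 : f ⟨a, haN⟩ ≠ f ⟨b, hbN⟩ := by
    intro h
    have h1 : f ⟨a * b, mm haN hbN⟩ = 1 := by rw [f_mul a b haN hbN, ← h, e1]
    exact bad _ _ (by decide +kernel) (by decide +kernel) h1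
  have e7 : f ⟨y, hyN⟩ * f ⟨a, haN⟩ = f ⟨b, hbN⟩ * f ⟨y, hyN⟩ := by
    rw [← f_mul, ← f_mul]; exact rel _ _ _ _ (by decide +kernel)
  have e8 : f ⟨y, hyN⟩ * f ⟨b, hbN⟩ = f ⟨a, haN⟩ * f ⟨b, hbN⟩ * f ⟨y, hyN⟩ := by
    have h1 : f ⟨y, hyN⟩ * f ⟨b, hbN⟩ * f ⟨t, htN⟩ = f ⟨a, haN⟩ * f ⟨b, hbN⟩ * f ⟨y, hyN⟩ := by
      rw [← f_mul, ← f_mul, ← f_mul, ← f_mul]
      refine rel _ _ _ _ ?_
      change (y : Perm (Fin 8)) * b * t = a * b * y
      rw [htv]; decide +kernel
    rwa [hft, mul_one] at h1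
  have e9 : f ⟨v, hvN⟩ * f ⟨a, haN⟩ = f ⟨a, haN⟩ * f ⟨v, hvN⟩ := by
    rw [← f_mul, ← f_mul]; exact rel _ _ _ _ (by decide +kernel)
  have e10 : f ⟨v, hvN⟩ * f ⟨b, hbN⟩ = f ⟨b, hbN⟩ * f ⟨v, hvN⟩ := by
    have h1 : f ⟨v, hvN⟩ * f ⟨b, hbN⟩ * f ⟨t, htN⟩ = f ⟨b, hbN⟩ * f ⟨v, hvN⟩ := by
      rw [← f_mul, ← f_mul, ← f_mul]
      refine rel _ _ _ _ ?_
      change (v : Perm (Fin 8)) * b * t = b * v
      rw [htv]; decide +kernel
    rwa [hft, mul_one] at h1
  have e11 : f ⟨r, hrN⟩ * f ⟨v, hvN⟩ = f ⟨v, hvN⟩ * f ⟨r, hrN⟩ := by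
    rw [← f_mul, ← f_mul]; exact rel _ _ _ _ (by decide +kernel)
  have e12 : f ⟨r, hrN⟩ * f ⟨b, hbN⟩ = f ⟨a, haN⟩ * f ⟨b, hbN⟩ * f ⟨r, hrN⟩ := by
    rw [← f_mul, ← f_mul, ← f_mul]; exact rel _ _ _ _ (by decide +kernel)
  have e13 : f ⟨r, hrN⟩ * f ⟨a, haN⟩ = f ⟨a, haN⟩ * f ⟨r, hrN⟩ := by
    rw [← f_mul, ← f_mul]; exact rel _ _ _ _ (by decide +kernel)
  have hvD : v ∈ D ∨ v * a ∈ D := by
    rcases s4 _ _ e1 e2 e3 e4 e5 e6 ⟨_, e7, e8⟩ _ e9 e10 with h1 | h1 | h1 | h1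
    · left; exact (hf _).1 h1
    · right
      refine (hf ⟨v * a, mm hvN haN⟩).1 ?_
      rw [f_mul v a hvN haN, h1, e1]
    · exfalso
      rw [h1, e12] at e11
      apply e4
      have h2 : f ⟨a, haN⟩ * (f ⟨b, hbN⟩ * f ⟨r, hrN⟩) = 1 * (f ⟨b, hbN⟩ * f ⟨r, hrN⟩) := by
        rw [one_mul, ← mul_assoc]; exact e11
      exact mul_right_cancel h2
    · exfalso
      rw [h1, ← mul_assoc, e13, mul_assoc, e12, mul_assoc] at e11
      apply e4
      have h2 : f ⟨a, haN⟩ * (f ⟨a, haN⟩ * (f ⟨b, hbN⟩ * f ⟨r, hrN⟩)) =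
          1 * (f ⟨a, haN⟩ * (f ⟨b, hbN⟩ * f ⟨r, hrN⟩)) := by
        rw [one_mul]
        exact e11
      exact mul_right_cancel h2
  -- conclusion from a regular elementary abelian subgroup of order 8 in `D`
  have concl : ∀ v1 w1 z1 z2 : alternatingGroup (Fin 8), v1 ∈ D → w1 = y * v1 * y⁻¹ → z1 ^ 7 = 1 → z1 ≠ 1 → z2 ^ 7 = 1 →
      z2 ≠ 1 → z1 * t * z1⁻¹ = v1 → z1 * v1 * z1⁻¹ = w1 → z1 * w1 * z1⁻¹ = t * v1 →
      z2 * t * z2⁻¹ = v1 → z2 * v1 * z2⁻¹ = v1 * w1 → z2 * w1 * z2⁻¹ = t * w1 →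
      ((z1 * z2 : alternatingGroup (Fin 8)) : Perm (Fin 8)) * (z1 * z2 : alternatingGroup (Fin 8)) = 1 →
      ((z1 * z2 : alternatingGroup (Fin 8)) : Perm (Fin 8)).support.card = 4 → False := by
    intro v1 w1 z1 z2 hv1 hw1 hz1 hz1' hz2 hz2' r1 r2 r3 r4 r5 r6 c1 c2
    have hw1D : w1 ∈ D := by
      have h1 := (Subgroup.mem_normalizer_iff.1 hyN v1).1 hv1
      rw [hw1]; exact h1
    let S : Set (alternatingGroup (Fin 8)) := {t, v1, w1}
    have htS : t ∈ Subgroup.closure S := Subgroup.subset_closure (by simp [S])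
    have hvS : v1 ∈ Subgroup.closure S := Subgroup.subset_closure (by simp [S])
    have hwS : w1 ∈ Subgroup.closure S := Subgroup.subset_closure (by simp [S])
    have hSD : Subgroup.closure S ≤ D := by
      rw [Subgroup.closure_le]
      rintro x (rfl | rfl | rfl)
      · exact htD
      · exact hv1
      · exact hw1D
    have hS1 : Subgroup.closure S ≠ ⊥ := by
      intro h1
      rw [h1, Subgroup.mem_bot] at htS
      exact ht1 htS
    have hz1N : z1 ∈ Subgroup.normalizer (Subgroup.closure S : Set (alternatingGroup (Fin 8))) := by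
      apply mem_normalizer_closure
      rintro x (rfl | rfl | rfl)
      · rw [r1]; exact hvS
      · rw [r2]; exact hwS
      · rw [r3]; exact mul_mem htS hvS
    have hz2N : z2 ∈ Subgroup.normalizer (Subgroup.closure S : Set (alternatingGroup (Fin 8))) := by
      apply mem_normalizer_closure
      rintro x (rfl | rfl | rfl)
      · rw [r4]; exact hvS
      · rw [r5]; exact mul_mem hvS hwS
      · rw [r6]; exact mul_mem htS hwS
    have hz1D : z1 ∈ D := hD.mem_of_prime (hD.norm _ hSD hS1 hz1N) (r := 7) (by norm_num) (by norm_num)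
      (by have : Fact (Nat.Prime 7) := ⟨by norm_num⟩; exact orderOf_eq_prime hz1 hz1')
    have hz2D : z2 ∈ D := hD.mem_of_prime (hD.norm _ hSD hS1 hz2N) (r := 7) (by norm_num) (by norm_num)
      (by have : Fact (Nat.Prime 7) := ⟨by norm_num⟩; exact orderOf_eq_prime hz2 hz2')
    exact h22 (z1 * z2) (hD.le (mul_mem hz1D hz2D)) c1 c2
  have tq : ∀ g h : alternatingGroup (Fin 8),
      (g : Perm (Fin 8)) * t4 * (g : Perm (Fin 8))⁻¹ = h → g * t * g⁻¹ = h := by
    intro g h hg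
    apply Subtype.ext
    change (g : Perm (Fin 8)) * t * (g : Perm (Fin 8))⁻¹ = h
    rw [htv]; exact hg
  have tq2 : ∀ g h : alternatingGroup (Fin 8),
      (g : Perm (Fin 8)) = t4 * (h : Perm (Fin 8)) → g = t * h := by
    intro g h hg
    apply Subtype.ext
    change (g : Perm (Fin 8)) = t * h
    rw [htv]; exact hg
  rcases hvD with h1 | h1
  · exact concl v (y * v * y⁻¹) (mk (List.formPerm [1, 2, 4, 3, 6, 7, 5]) (by decide +kernel))
      (mk (List.formPerm [1, 2, 6, 3, 4, 5, 7]) (by decide +kernel)) h1 rfl (by decide +kernel) (by decide +kernel)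
      (by decide +kernel) (by decide +kernel) (tq _ _ (by decide +kernel)) (by decide +kernel) (tq2 _ _ (by decide +kernel))
      (tq _ _ (by decide +kernel)) (by decide +kernel) (tq2 _ _ (by decide +kernel)) (by decide +kernel) (by decide +kernel)
  · exact concl (v * a) (y * (v * a) * y⁻¹) (mk (List.formPerm [0, 2, 4, 3, 6, 7, 5]) (by decide +kernel))
      (mk (List.formPerm [0, 2, 6, 3, 4, 5, 7]) (by decide +kernel)) h1 rfl (by decide +kernel) (by decide +kernel)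
      (by decide +kernel) (by decide +kernel) (tq _ _ (by decide +kernel)) (by decide +kernel) (tq2 _ _ (by decide +kernel))
      (tq _ _ (by decide +kernel)) (by decide +kernel) (tq2 _ _ (by decide +kernel)) (by decide +kernel) (by decide +kernel)

end N8

/-! ### Degree 9, type 2^4 -/

namespace N9

/-- the standard involution of type `2^4` -/
def t4 : Perm (Fin 9) := swap 0 1 * swap 2 3 * (swap 4 5 * swap 6 7)

theorem four_std {H : Subgroup (alternatingGroup (Fin 9))} (hH : FixLE 4 H)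
    (h22 : ∀ g ∈ H, (g : Perm (Fin 9)) * g = 1 → (g : Perm (Fin 9)).support.card ≠ 4) {t : alternatingGroup (Fin 9)}
    (htv : (t : Perm (Fin 9)) = t4) (htH : t ∈ H)
    (hfix : (MulAction.fixedBy (_ ⧸ H) t).ncard = 4) : False := by
  have ht1 : t ≠ 1 := by
    intro h1
    rw [h1] at htv
    exact absurd htv (by decide +kernel : ((1 : alternatingGroup (Fin 9)) : Perm (Fin 9)) ≠ t4)
  obtain ⟨D, hD, htD⟩ := hH.exists_ti (by norm_num) le_rfl htH ht1 hfix
  obtain ⟨f, hf⟩ := hD.hom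
  -- elements commuting with `t`
  have hN : ∀ g : alternatingGroup (Fin 9), (g : Perm (Fin 9)) * t4 = t4 * (g : Perm (Fin 9)) → g ∈ Subgroup.normalizer (D : Set (alternatingGroup (Fin 9))) := by
    intro g hg
    refine hD.cent htD ht1 (Subtype.ext ?_)
    change (g : Perm (Fin 9)) * t = t * g
    rw [htv]; exact hg
  let mk : (g : Perm (Fin 9)) → Perm.sign g = 1 → alternatingGroup (Fin 9) := fun g hg => ⟨g, Perm.mem_alternatingGroup.2 hg⟩
  let a := mk (swap 0 1 * swap 2 3) (by decide +kernel)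
  let b := mk (swap 0 1 * swap 4 5) (by decide +kernel)
  let y := mk (swap 2 4 * swap 4 6 * (swap 3 5 * swap 5 7)) (by decide +kernel)
  let v := mk (swap 0 2 * swap 1 3 * (swap 4 6 * swap 5 7)) (by decide +kernel)
  let r := mk (swap 0 2 * swap 1 3) (by decide +kernel)
  have haN := hN a (by decide +kernel)
  have hbN := hN b (by decide +kernel)
  have hyN := hN y (by decide +kernel)
  have hvN := hN v (by decide +kernel)
  have hrN := hN r (by decide +kernel)
  have htN := hN t (by rw [htv])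
  have hft : f ⟨t, htN⟩ = 1 := (hf _).2 htD
  have bad : ∀ g : alternatingGroup (Fin 9), (hg : g ∈ Subgroup.normalizer (D : Set (alternatingGroup (Fin 9)))) →
      (g : Perm (Fin 9)) * g = 1 → (g : Perm (Fin 9)).support.card = 4 → f ⟨g, hg⟩ ≠ 1 := by
    intro g hg h1 h2 h3
    exact h22 g (hD.le ((hf _).1 h3)) h1 h2
  have mulf : ∀ g h k : alternatingGroup (Fin 9), (hg : g ∈ Subgroup.normalizer (D : Set (alternatingGroup (Fin 9)))) →
      (hh : h ∈ Subgroup.normalizer (D : Set (alternatingGroup (Fin 9)))) →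
      (hk : k ∈ Subgroup.normalizer (D : Set (alternatingGroup (Fin 9)))) → (g : Perm (Fin 9)) * h = k →
      f ⟨g, hg⟩ * f ⟨h, hh⟩ = f ⟨k, hk⟩ := by
    intro g h k hg hh hk he
    rw [← map_mul]
    congr 1
    exact Subtype.ext (Subtype.ext he)
  have onef : ∀ g : alternatingGroup (Fin 9), (hg : g ∈ Subgroup.normalizer (D : Set (alternatingGroup (Fin 9)))) →
      (g : Perm (Fin 9)) = 1 → f ⟨g, hg⟩ = 1 := by
    intro g hg he
    have : (⟨g, hg⟩ : ↥(Subgroup.normalizer (D : Set (alternatingGroup (Fin 9))))) = 1 := Subtype.ext (Subtype.ext he)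
    rw [this, map_one]
  have mm : ∀ {g h : alternatingGroup (Fin 9)}, g ∈ Subgroup.normalizer (D : Set (alternatingGroup (Fin 9))) →
      h ∈ Subgroup.normalizer (D : Set (alternatingGroup (Fin 9))) →
      g * h ∈ Subgroup.normalizer (D : Set (alternatingGroup (Fin 9))) := fun h1 h2 => mul_mem h1 h2
  -- the relations
  have f_mul : ∀ g h : alternatingGroup (Fin 9), (hg : g ∈ Subgroup.normalizer (D : Set (alternatingGroup (Fin 9)))) →
      (hh : h ∈ Subgroup.normalizer (D : Set (alternatingGroup (Fin 9)))) →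
      f ⟨g * h, mm hg hh⟩ = f ⟨g, hg⟩ * f ⟨h, hh⟩ := fun g h hg hh => (mulf g h _ hg hh _ rfl).symm
  have rel : ∀ g h : alternatingGroup (Fin 9), (hg : g ∈ Subgroup.normalizer (D : Set (alternatingGroup (Fin 9)))) →
      (hh : h ∈ Subgroup.normalizer (D : Set (alternatingGroup (Fin 9)))) → (g : Perm (Fin 9)) = h → f ⟨g, hg⟩ = f ⟨h, hh⟩ := by
    intro g h hg hh he
    congr 1
    exact Subtype.ext (Subtype.ext he)
  have e1 : f ⟨a, haN⟩ * f ⟨a, haN⟩ = 1 := by
    rw [← f_mul]; exact onef _ _ (by decide +kernel)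
  have e2 : f ⟨b, hbN⟩ * f ⟨b, hbN⟩ = 1 := by
    rw [← f_mul]; exact onef _ _ (by decide +kernel)
  have e3 : f ⟨a, haN⟩ * f ⟨b, hbN⟩ = f ⟨b, hbN⟩ * f ⟨a, haN⟩ := by
    rw [← f_mul, ← f_mul]; exact rel _ _ _ _ (by decide +kernel)
  have e4 : f ⟨a, haN⟩ ≠ 1 := bad _ _ (by decide +kernel) (by decide +kernel)
  have e5 : f ⟨b, hbN⟩ ≠ 1 := bad _ _ (by decide +kernel) (by decide +kernel)
  have e6 : f ⟨a, haN⟩ ≠ f ⟨b, hbN⟩ := by
    intro h
    have h1 : f ⟨a * b, mm haN hbN⟩ = 1 := by rw [f_mul a b haN hbN, ← h, e1]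
    exact bad _ _ (by decide +kernel) (by decide +kernel) h1
  have e7 : f ⟨y, hyN⟩ * f ⟨a, haN⟩ = f ⟨b, hbN⟩ * f ⟨y, hyN⟩ := by
    rw [← f_mul, ← f_mul]; exact rel _ _ _ _ (by decide +kernel)
  have e8 : f ⟨y, hyN⟩ * f ⟨b, hbN⟩ = f ⟨a, haN⟩ * f ⟨b, hbN⟩ * f ⟨y, hyN⟩ := by
    have h1 : f ⟨y, hyN⟩ * f ⟨b, hbN⟩ * f ⟨t, htN⟩ = f ⟨a, haN⟩ * f ⟨b, hbN⟩ * f ⟨y, hyN⟩ := by
      rw [← f_mul, ← f_mul, ← f_mul, ← f_mul]
      refine rel _ _ _ _ ?_
      change (y : Perm (Fin 9)) * b * t = a * b * y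
      rw [htv]; decide +kernel
    rwa [hft, mul_one] at h1
  have e9 : f ⟨v, hvN⟩ * f ⟨a, haN⟩ = f ⟨a, haN⟩ * f ⟨v, hvN⟩ := by
    rw [← f_mul, ← f_mul]; exact rel _ _ _ _ (by decide +kernel)
  have e10 : f ⟨v, hvN⟩ * f ⟨b, hbN⟩ = f ⟨b, hbN⟩ * f ⟨v, hvN⟩ := by
    have h1 : f ⟨v, hvN⟩ * f ⟨b, hbN⟩ * f ⟨t, htN⟩ = f ⟨b, hbN⟩ * f ⟨v, hvN⟩ := by
      rw [← f_mul, ← f_mul, ← f_mul]
      refine rel _ _ _ _ ?_
      change (v : Perm (Fin 9)) * b * t = b * v
      rw [htv]; decide +kernel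
    rwa [hft, mul_one] at h1
  have e11 : f ⟨r, hrN⟩ * f ⟨v, hvN⟩ = f ⟨v, hvN⟩ * f ⟨r, hrN⟩ := by
    rw [← f_mul, ← f_mul]; exact rel _ _ _ _ (by decide +kernel)
  have e12 : f ⟨r, hrN⟩ * f ⟨b, hbN⟩ = f ⟨a, haN⟩ * f ⟨b, hbN⟩ * f ⟨r, hrN⟩ := by
    rw [← f_mul, ← f_mul, ← f_mul]; exact rel _ _ _ _ (by decide +kernel)
  have e13 : f ⟨r, hrN⟩ * f ⟨a, haN⟩ = f ⟨a, haN⟩ * f ⟨r, hrN⟩ := by
    rw [← f_mul, ← f_mul]; exact rel _ _ _ _ (by decide +kernel)
  have hvD : v ∈ D ∨ v * a ∈ D := by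
    rcases s4 _ _ e1 e2 e3 e4 e5 e6 ⟨_, e7, e8⟩ _ e9 e10 with h1 | h1 | h1 | h1
    · left; exact (hf _).1 h1
    · right
      refine (hf ⟨v * a, mm hvN haN⟩).1 ?_
      rw [f_mul v a hvN haN, h1, e1]
    · exfalso
      rw [h1, e12] at e11
      apply e4
      have h2 : f ⟨a, haN⟩ * (f ⟨b, hbN⟩ * f ⟨r, hrN⟩) = 1 * (f ⟨b, hbN⟩ * f ⟨r, hrN⟩) := by
        rw [one_mul, ← mul_assoc]; exact e11
      exact mul_right_cancel h2
    · exfalso
      rw [h1, ← mul_assoc, e13, mul_assoc, e12, mul_assoc] at e11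
      apply e4
      have h2 : f ⟨a, haN⟩ * (f ⟨a, haN⟩ * (f ⟨b, hbN⟩ * f ⟨r, hrN⟩)) =
          1 * (f ⟨a, haN⟩ * (f ⟨b, hbN⟩ * f ⟨r, hrN⟩)) := by
        rw [one_mul]
        exact e11
      exact mul_right_cancel h2
  -- conclusion from a regular elementary abelian subgroup of order 8 in `D`
  have concl : ∀ v1 w1 z1 z2 : alternatingGroup (Fin 9), v1 ∈ D → w1 = y * v1 * y⁻¹ → z1 ^ 7 = 1 → z1 ≠ 1 → z2 ^ 7 = 1 →
      z2 ≠ 1 → z1 * t * z1⁻¹ = v1 → z1 * v1 * z1⁻¹ = w1 → z1 * w1 * z1⁻¹ = t * v1 →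
      z2 * t * z2⁻¹ = v1 → z2 * v1 * z2⁻¹ = v1 * w1 → z2 * w1 * z2⁻¹ = t * w1 →
      ((z1 * z2 : alternatingGroup (Fin 9)) : Perm (Fin 9)) * (z1 * z2 : alternatingGroup (Fin 9)) = 1 →
      ((z1 * z2 : alternatingGroup (Fin 9)) : Perm (Fin 9)).support.card = 4 → False := by
    intro v1 w1 z1 z2 hv1 hw1 hz1 hz1' hz2 hz2' r1 r2 r3 r4 r5 r6 c1 c2
    have hw1D : w1 ∈ D := by
      have h1 := (Subgroup.mem_normalizer_iff.1 hyN v1).1 hv1
      rw [hw1]; exact h1
    let S : Set (alternatingGroup (Fin 9)) := {t, v1, w1}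
    have htS : t ∈ Subgroup.closure S := Subgroup.subset_closure (by simp [S])
    have hvS : v1 ∈ Subgroup.closure S := Subgroup.subset_closure (by simp [S])
    have hwS : w1 ∈ Subgroup.closure S := Subgroup.subset_closure (by simp [S])
    have hSD : Subgroup.closure S ≤ D := by
      rw [Subgroup.closure_le]
      rintro x (rfl | rfl | rfl)
      · exact htD
      · exact hv1
      · exact hw1D
    have hS1 : Subgroup.closure S ≠ ⊥ := by
      intro h1
      rw [h1, Subgroup.mem_bot] at htS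
      exact ht1 htS
    have hz1N : z1 ∈ Subgroup.normalizer (Subgroup.closure S : Set (alternatingGroup (Fin 9))) := by
      apply mem_normalizer_closure
      rintro x (rfl | rfl | rfl)
      · rw [r1]; exact hvS
      · rw [r2]; exact hwS
      · rw [r3]; exact mul_mem htS hvS
    have hz2N : z2 ∈ Subgroup.normalizer (Subgroup.closure S : Set (alternatingGroup (Fin 9))) := by
      apply mem_normalizer_closure
      rintro x (rfl | rfl | rfl)
      · rw [r4]; exact hvS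
      · rw [r5]; exact mul_mem hvS hwS
      · rw [r6]; exact mul_mem htS hwS
    have hz1D : z1 ∈ D := hD.mem_of_prime (hD.norm _ hSD hS1 hz1N) (r := 7) (by norm_num) (by norm_num)
      (by have : Fact (Nat.Prime 7) := ⟨by norm_num⟩; exact orderOf_eq_prime hz1 hz1')
    have hz2D : z2 ∈ D := hD.mem_of_prime (hD.norm _ hSD hS1 hz2N) (r := 7) (by norm_num) (by norm_num)
      (by have : Fact (Nat.Prime 7) := ⟨by norm_num⟩; exact orderOf_eq_prime hz2 hz2')
    exact h22 (z1 * z2) (hD.le (mul_mem hz1D hz2D)) c1 c2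
  have tq : ∀ g h : alternatingGroup (Fin 9),
      (g : Perm (Fin 9)) * t4 * (g : Perm (Fin 9))⁻¹ = h → g * t * g⁻¹ = h := by
    intro g h hg
    apply Subtype.ext
    change (g : Perm (Fin 9)) * t * (g : Perm (Fin 9))⁻¹ = h
    rw [htv]; exact hg
  have tq2 : ∀ g h : alternatingGroup (Fin 9),
      (g : Perm (Fin 9)) = t4 * (h : Perm (Fin 9)) → g = t * h := by
    intro g h hg
    apply Subtype.ext
    change (g : Perm (Fin 9)) = t * h
    rw [htv]; exact hg
  rcases hvD with h1 | h1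
  · exact concl v (y * v * y⁻¹) (mk (List.formPerm [1, 2, 4, 3, 6, 7, 5]) (by decide +kernel))
      (mk (List.formPerm [1, 2, 6, 3, 4, 5, 7]) (by decide +kernel)) h1 rfl (by decide +kernel) (by decide +kernel)
      (by decide +kernel) (by decide +kernel) (tq _ _ (by decide +kernel)) (by decide +kernel) (tq2 _ _ (by decide +kernel))
      (tq _ _ (by decide +kernel)) (by decide +kernel) (tq2 _ _ (by decide +kernel)) (by decide +kernel) (by decide +kernel)
  · exact concl (v * a) (y * (v * a) * y⁻¹) (mk (List.formPerm [0, 2, 4, 3, 6, 7, 5]) (by decide +kernel))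
      (mk (List.formPerm [0, 2, 6, 3, 4, 5, 7]) (by decide +kernel)) h1 rfl (by decide +kernel) (by decide +kernel)
      (by decide +kernel) (by decide +kernel) (tq _ _ (by decide +kernel)) (by decide +kernel) (tq2 _ _ (by decide +kernel))
      (tq _ _ (by decide +kernel)) (by decide +kernel) (tq2 _ _ (by decide +kernel)) (by decide +kernel) (by decide +kernel)

end N9

end Cfsg.Agent.H546.Fx
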