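import Cfsg.Agent.H546.Fx.AltBase

/-!
# Fixity 4 for alternating groups of degree 8, 9, 10, 11: propagation (for S3002)
-/

set_option autoImplicit false
set_option maxRecDepth 10000

namespace Cfsg.Agent.H546.Fx

open Equiv

/-! ### Degree 8 -/

namespace N8

theorem y0_mem (K : Subgroup (Perm (Fin 8))) (h : PG K) (hx : List.formPerm [0, 1, 2] ∈ K) :
    (List.formPerm [3, 4, 5] : Perm (Fin 8)) ∈ K := by
  have h1 : (List.formPerm [3, 5, 4, 6, 7] : Perm (Fin 8)) ∈ K :=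
    h.five hx (by decide +kernel) (by decide +kernel) (by decide +kernel)
  have h2 : (List.formPerm [3, 5, 7, 6, 4] : Perm (Fin 8)) ∈ K :=
    h.five hx (by decide +kernel) (by decide +kernel) (by decide +kernel)
  have : (List.formPerm [3, 4, 5] : Perm (Fin 8)) = List.formPerm [3, 5, 4, 6, 7] * List.formPerm [3, 5, 7, 6, 4] := by
    decide +kernel
  rw [this]; exact K.mul_mem h1 h2

theorem pr_pi : Pr (List.formPerm [0, 1, 2] : Perm (Fin 8)) (swap 0 3 * swap 1 4 * swap 2 5) := by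
  intro K hK hx
  have : (swap 0 3 * swap 1 4 * swap 2 5 : Perm (Fin 8)) * List.formPerm [0, 1, 2] * (swap 0 3 * swap 1 4 * swap 2 5)⁻¹ =
      List.formPerm [3, 4, 5] := by decide +kernel
  rw [this]; exact y0_mem K hK hx

theorem pr_23 : Pr (List.formPerm [0, 1, 2] : Perm (Fin 8)) (swap 2 3) := by
  have e : (swap 2 3 : Perm (Fin 8)) = swap 0 2 * swap 3 6 * ((swap 0 3 * swap 1 4 * swap 2 5) * swap 3 6 *
      (swap 0 3 * swap 1 4 * swap 2 5)) * (swap 0 2 * swap 3 6) := by decide +kernel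
  have h1 : Pr (List.formPerm [0, 1, 2] : Perm (Fin 8)) (swap 0 2) := Pr.of_inv (by decide +kernel)
  have h2 : Pr (List.formPerm [0, 1, 2] : Perm (Fin 8)) (swap 3 6) := Pr.of_comm (by decide +kernel)
  rw [e]
  exact ((h1.mul h2).mul ((pr_pi.mul h2).mul pr_pi)).mul (h1.mul h2)

theorem pr_all (π : Perm (Fin 8)) : Pr (List.formPerm [0, 1, 2] : Perm (Fin 8)) π := by
  refine Pr.all (m := 7) ?_ π
  intro i
  fin_cases i
  · exact Pr.of_inv (by decide +kernel)
  · exact Pr.of_inv (by decide +kernel)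
  · exact pr_23
  · exact Pr.of_comm (by decide +kernel)
  · exact Pr.of_comm (by decide +kernel)
  · exact Pr.of_comm (by decide +kernel)
  · exact Pr.of_comm (by decide +kernel)

theorem alt_le {K : Subgroup (Perm (Fin 8))} (hK : PG K) {g : Perm (Fin 8)} (hg : g ∈ K)
    (hg3 : g.support.card = 3) : alternatingGroup (Fin 8) ≤ K :=
  alt_le_of_mem_three (x0 := List.formPerm [0, 1, 2]) (by decide +kernel) pr_all hK hg hg3

end N8

/-! ### Degree 9 -/

namespace N9

theorem y0_mem (K : Subgroup (Perm (Fin 9))) (h : PG K) (hx : List.formPerm [0, 1, 2] ∈ K) :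
    (List.formPerm [3, 4, 5] : Perm (Fin 9)) ∈ K := by
  have h1 : (List.formPerm [3, 5, 4, 6, 7] : Perm (Fin 9)) ∈ K :=
    h.five hx (by decide +kernel) (by decide +kernel) (by decide +kernel)
  have h2 : (List.formPerm [3, 5, 7, 6, 4] : Perm (Fin 9)) ∈ K :=
    h.five hx (by decide +kernel) (by decide +kernel) (by decide +kernel)
  have : (List.formPerm [3, 4, 5] : Perm (Fin 9)) = List.formPerm [3, 5, 4, 6, 7] * List.formPerm [3, 5, 7, 6, 4] := by
    decide +kernel
  rw [this]; exact K.mul_mem h1 h2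

theorem pr_pi : Pr (List.formPerm [0, 1, 2] : Perm (Fin 9)) (swap 0 3 * swap 1 4 * swap 2 5) := by
  intro K hK hx
  have : (swap 0 3 * swap 1 4 * swap 2 5 : Perm (Fin 9)) * List.formPerm [0, 1, 2] * (swap 0 3 * swap 1 4 * swap 2 5)⁻¹ =
      List.formPerm [3, 4, 5] := by decide +kernel
  rw [this]; exact y0_mem K hK hx

theorem pr_23 : Pr (List.formPerm [0, 1, 2] : Perm (Fin 9)) (swap 2 3) := by
  have e : (swap 2 3 : Perm (Fin 9)) = swap 0 2 * swap 3 6 * ((swap 0 3 * swap 1 4 * swap 2 5) * swap 3 6 *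
      (swap 0 3 * swap 1 4 * swap 2 5)) * (swap 0 2 * swap 3 6) := by decide +kernel
  have h1 : Pr (List.formPerm [0, 1, 2] : Perm (Fin 9)) (swap 0 2) := Pr.of_inv (by decide +kernel)
  have h2 : Pr (List.formPerm [0, 1, 2] : Perm (Fin 9)) (swap 3 6) := Pr.of_comm (by decide +kernel)
  rw [e]
  exact ((h1.mul h2).mul ((pr_pi.mul h2).mul pr_pi)).mul (h1.mul h2)

theorem pr_all (π : Perm (Fin 9)) : Pr (List.formPerm [0, 1, 2] : Perm (Fin 9)) π := by
  refine Pr.all (m := 8) ?_ π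
  intro i
  fin_cases i
  · exact Pr.of_inv (by decide +kernel)
  · exact Pr.of_inv (by decide +kernel)
  · exact pr_23
  · exact Pr.of_comm (by decide +kernel)
  · exact Pr.of_comm (by decide +kernel)
  · exact Pr.of_comm (by decide +kernel)
  · exact Pr.of_comm (by decide +kernel)
  · exact Pr.of_comm (by decide +kernel)

theorem alt_le {K : Subgroup (Perm (Fin 9))} (hK : PG K) {g : Perm (Fin 9)} (hg : g ∈ K)
    (hg3 : g.support.card = 3) : alternatingGroup (Fin 9) ≤ K :=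
  alt_le_of_mem_three (x0 := List.formPerm [0, 1, 2]) (by decide +kernel) pr_all hK hg hg3

theorem two_two {K : Subgroup (Perm (Fin 9))} (hK : PG K) {g : Perm (Fin 9)} (hg : g ∈ K) (hg2 : g * g = 1)
    (hg4 : g.support.card = 4) : alternatingGroup (Fin 9) ≤ K := by
  obtain ⟨σ, hσ⟩ := invol_conj (t := (swap 0 1 * swap 2 3 : Perm (Fin 9))) hg2 (by decide +kernel)
    (by rw [hg4]; decide +kernel) (by decide +kernel)
  have h1 : (swap 0 1 * swap 2 3 : Perm (Fin 9)) ∈ cj σ K := by rw [mem_cj, hσ]; exact hg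
  have h2 : (List.formPerm [4, 6, 5, 7, 8] : Perm (Fin 9)) ∈ cj σ K :=
    (hK.conj σ).five h1 (by decide +kernel) (by decide +kernel) (by decide +kernel)
  have h3 : (List.formPerm [4, 6, 8, 7, 5] : Perm (Fin 9)) ∈ cj σ K :=
    (hK.conj σ).five h1 (by decide +kernel) (by decide +kernel) (by decide +kernel)
  have h4 := (cj σ K).mul_mem h2 h3
  rw [mem_cj] at h4
  refine alt_le hK h4 ?_
  rw [Perm.card_support_conj]
  decide +kernel

end N9

/-! ### Degree 10 -/

namespace N10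

theorem y0_mem (K : Subgroup (Perm (Fin 10))) (h : PG K) (hx : List.formPerm [0, 1, 2] ∈ K) :
    (List.formPerm [3, 4, 5] : Perm (Fin 10)) ∈ K := by
  have h1 : (List.formPerm [3, 5, 4, 6, 7] : Perm (Fin 10)) ∈ K :=
    h.five hx (by decide +kernel) (by decide +kernel) (by decide +kernel)
  have h2 : (List.formPerm [3, 5, 7, 6, 4] : Perm (Fin 10)) ∈ K :=
    h.five hx (by decide +kernel) (by decide +kernel) (by decide +kernel)
  have : (List.formPerm [3, 4, 5] : Perm (Fin 10)) = List.formPerm [3, 5, 4, 6, 7] * List.formPerm [3, 5, 7, 6, 4] := by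
    decide +kernel
  rw [this]; exact K.mul_mem h1 h2

theorem pr_pi : Pr (List.formPerm [0, 1, 2] : Perm (Fin 10)) (swap 0 3 * swap 1 4 * swap 2 5) := by
  intro K hK hx
  have : (swap 0 3 * swap 1 4 * swap 2 5 : Perm (Fin 10)) * List.formPerm [0, 1, 2] * (swap 0 3 * swap 1 4 * swap 2 5)⁻¹ =
      List.formPerm [3, 4, 5] := by decide +kernel
  rw [this]; exact y0_mem K hK hx

theorem pr_23 : Pr (List.formPerm [0, 1, 2] : Perm (Fin 10)) (swap 2 3) := by
  have e : (swap 2 3 : Perm (Fin 10)) = swap 0 2 * swap 3 6 * ((swap 0 3 * swap 1 4 * swap 2 5) * swap 3 6 *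
      (swap 0 3 * swap 1 4 * swap 2 5)) * (swap 0 2 * swap 3 6) := by decide +kernel
  have h1 : Pr (List.formPerm [0, 1, 2] : Perm (Fin 10)) (swap 0 2) := Pr.of_inv (by decide +kernel)
  have h2 : Pr (List.formPerm [0, 1, 2] : Perm (Fin 10)) (swap 3 6) := Pr.of_comm (by decide +kernel)
  rw [e]
  exact ((h1.mul h2).mul ((pr_pi.mul h2).mul pr_pi)).mul (h1.mul h2)

theorem pr_all (π : Perm (Fin 10)) : Pr (List.formPerm [0, 1, 2] : Perm (Fin 10)) π := by
  refine Pr.all (m := 9) ?_ π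
  intro i
  fin_cases i
  · exact Pr.of_inv (by decide +kernel)
  · exact Pr.of_inv (by decide +kernel)
  · exact pr_23
  · exact Pr.of_comm (by decide +kernel)
  · exact Pr.of_comm (by decide +kernel)
  · exact Pr.of_comm (by decide +kernel)
  · exact Pr.of_comm (by decide +kernel)
  · exact Pr.of_comm (by decide +kernel)
  · exact Pr.of_comm (by decide +kernel)

theorem alt_le {K : Subgroup (Perm (Fin 10))} (hK : PG K) {g : Perm (Fin 10)} (hg : g ∈ K)
    (hg3 : g.support.card = 3) : alternatingGroup (Fin 10) ≤ K :=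
  alt_le_of_mem_three (x0 := List.formPerm [0, 1, 2]) (by decide +kernel) pr_all hK hg hg3

theorem two_two {K : Subgroup (Perm (Fin 10))} (hK : PG K) {g : Perm (Fin 10)} (hg : g ∈ K) (hg2 : g * g = 1)
    (hg4 : g.support.card = 4) : alternatingGroup (Fin 10) ≤ K := by
  obtain ⟨σ, hσ⟩ := invol_conj (t := (swap 0 1 * swap 2 3 : Perm (Fin 10))) hg2 (by decide +kernel)
    (by rw [hg4]; decide +kernel) (by decide +kernel)
  have h1 : (swap 0 1 * swap 2 3 : Perm (Fin 10)) ∈ cj σ K := by rw [mem_cj, hσ]; exact hg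
  have h2 : (List.formPerm [4, 6, 5, 7, 8] : Perm (Fin 10)) ∈ cj σ K :=
    (hK.conj σ).five h1 (by decide +kernel) (by decide +kernel) (by decide +kernel)
  have h3 : (List.formPerm [4, 6, 8, 7, 5] : Perm (Fin 10)) ∈ cj σ K :=
    (hK.conj σ).five h1 (by decide +kernel) (by decide +kernel) (by decide +kernel)
  have h4 := (cj σ K).mul_mem h2 h3
  rw [mem_cj] at h4
  refine alt_le hK h4 ?_
  rw [Perm.card_support_conj]
  decide +kernel

theorem two_four {K : Subgroup (Perm (Fin 10))} (hK : PG K) {g : Perm (Fin 10)} (hg : g ∈ K) (hg2 : g * g = 1)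
    (hg4 : g.support.card = 8) : alternatingGroup (Fin 10) ≤ K := by
  obtain ⟨σ, hσ⟩ := invol_conj (t := (swap 0 1 * swap 2 3 * swap 4 5 * swap 6 7 : Perm (Fin 10))) hg2
    (by decide +kernel) (by rw [hg4]; decide +kernel) (by decide +kernel)
  have h1 : (swap 0 1 * swap 2 3 * swap 4 5 * swap 6 7 : Perm (Fin 10)) ∈ cj σ K := by rw [mem_cj, hσ]; exact hg
  obtain ⟨i, j, hij, h2⟩ := (hK.conj σ) _ h1 (by decide +kernel)
    (fun i => ![1, swap 0 1 * swap 2 3, swap 0 1 * swap 4 5, swap 0 1 * swap 6 7, swap 0 1 * swap 8 9] i)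
    (by decide +kernel) (by decide +kernel)
  have h3 : ∀ i j : Fin 5, i < j →
      ((![1, swap 0 1 * swap 2 3, swap 0 1 * swap 4 5, swap 0 1 * swap 6 7, swap 0 1 * swap 8 9] : Fin 5 → Perm (Fin 10)) i)⁻¹ *
      (![1, swap 0 1 * swap 2 3, swap 0 1 * swap 4 5, swap 0 1 * swap 6 7, swap 0 1 * swap 8 9] : Fin 5 → Perm (Fin 10)) j *
      (((![1, swap 0 1 * swap 2 3, swap 0 1 * swap 4 5, swap 0 1 * swap 6 7, swap 0 1 * swap 8 9] : Fin 5 → Perm (Fin 10)) i)⁻¹ *
      (![1, swap 0 1 * swap 2 3, swap 0 1 * swap 4 5, swap 0 1 * swap 6 7, swap 0 1 * swap 8 9] : Fin 5 → Perm (Fin 10)) j) = 1 ∧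
      (((![1, swap 0 1 * swap 2 3, swap 0 1 * swap 4 5, swap 0 1 * swap 6 7, swap 0 1 * swap 8 9] : Fin 5 → Perm (Fin 10)) i)⁻¹ *
      (![1, swap 0 1 * swap 2 3, swap 0 1 * swap 4 5, swap 0 1 * swap 6 7, swap 0 1 * swap 8 9] : Fin 5 → Perm (Fin 10)) j).support.card = 4 := by
    decide +kernel
  obtain ⟨h4, h5⟩ := h3 i j hij
  rw [mem_cj] at h2
  refine two_two hK h2 ?_ ?_
  · have : ∀ u : Perm (Fin 10), u * u = 1 → σ * u * σ⁻¹ * (σ * u * σ⁻¹) = 1 := by
      intro u hu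
      calc σ * u * σ⁻¹ * (σ * u * σ⁻¹) = σ * (u * u) * σ⁻¹ := by group
        _ = 1 := by rw [hu]; group
    exact this _ h4
  · rw [Perm.card_support_conj]; exact h5

end N10

/-! ### Degree 11 -/

namespace N11

theorem y0_mem (K : Subgroup (Perm (Fin 11))) (h : PG K) (hx : List.formPerm [0, 1, 2] ∈ K) :
    (List.formPerm [3, 4, 5] : Perm (Fin 11)) ∈ K := by
  have h1 : (List.formPerm [3, 5, 4, 6, 7] : Perm (Fin 11)) ∈ K :=
    h.five hx (by decide +kernel) (by decide +kernel) (by decide +kernel)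
  have h2 : (List.formPerm [3, 5, 7, 6, 4] : Perm (Fin 11)) ∈ K :=
    h.five hx (by decide +kernel) (by decide +kernel) (by decide +kernel)
  have : (List.formPerm [3, 4, 5] : Perm (Fin 11)) = List.formPerm [3, 5, 4, 6, 7] * List.formPerm [3, 5, 7, 6, 4] := by
    decide +kernel
  rw [this]; exact K.mul_mem h1 h2

theorem pr_pi : Pr (List.formPerm [0, 1, 2] : Perm (Fin 11)) (swap 0 3 * swap 1 4 * swap 2 5) := by
  intro K hK hx
  have : (swap 0 3 * swap 1 4 * swap 2 5 : Perm (Fin 11)) * List.formPerm [0, 1, 2] * (swap 0 3 * swap 1 4 * swap 2 5)⁻¹ =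
      List.formPerm [3, 4, 5] := by decide +kernel
  rw [this]; exact y0_mem K hK hx

theorem pr_23 : Pr (List.formPerm [0, 1, 2] : Perm (Fin 11)) (swap 2 3) := by
  have e : (swap 2 3 : Perm (Fin 11)) = swap 0 2 * swap 3 6 * ((swap 0 3 * swap 1 4 * swap 2 5) * swap 3 6 *
      (swap 0 3 * swap 1 4 * swap 2 5)) * (swap 0 2 * swap 3 6) := by decide +kernel
  have h1 : Pr (List.formPerm [0, 1, 2] : Perm (Fin 11)) (swap 0 2) := Pr.of_inv (by decide +kernel)
  have h2 : Pr (List.formPerm [0, 1, 2] : Perm (Fin 11)) (swap 3 6) := Pr.of_comm (by decide +kernel)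
  rw [e]
  exact ((h1.mul h2).mul ((pr_pi.mul h2).mul pr_pi)).mul (h1.mul h2)

theorem pr_all (π : Perm (Fin 11)) : Pr (List.formPerm [0, 1, 2] : Perm (Fin 11)) π := by
  refine Pr.all (m := 10) ?_ π
  intro i
  fin_cases i
  · exact Pr.of_inv (by decide +kernel)
  · exact Pr.of_inv (by decide +kernel)
  · exact pr_23
  · exact Pr.of_comm (by decide +kernel)
  · exact Pr.of_comm (by decide +kernel)
  · exact Pr.of_comm (by decide +kernel)
  · exact Pr.of_comm (by decide +kernel)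
  · exact Pr.of_comm (by decide +kernel)
  · exact Pr.of_comm (by decide +kernel)
  · exact Pr.of_comm (by decide +kernel)

theorem alt_le {K : Subgroup (Perm (Fin 11))} (hK : PG K) {g : Perm (Fin 11)} (hg : g ∈ K)
    (hg3 : g.support.card = 3) : alternatingGroup (Fin 11) ≤ K :=
  alt_le_of_mem_three (x0 := List.formPerm [0, 1, 2]) (by decide +kernel) pr_all hK hg hg3

theorem two_two {K : Subgroup (Perm (Fin 11))} (hK : PG K) {g : Perm (Fin 11)} (hg : g ∈ K) (hg2 : g * g = 1)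
    (hg4 : g.support.card = 4) : alternatingGroup (Fin 11) ≤ K := by
  obtain ⟨σ, hσ⟩ := invol_conj (t := (swap 0 1 * swap 2 3 : Perm (Fin 11))) hg2 (by decide +kernel)
    (by rw [hg4]; decide +kernel) (by decide +kernel)
  have h1 : (swap 0 1 * swap 2 3 : Perm (Fin 11)) ∈ cj σ K := by rw [mem_cj, hσ]; exact hg
  have h2 : (List.formPerm [4, 6, 5, 7, 8] : Perm (Fin 11)) ∈ cj σ K :=
    (hK.conj σ).five h1 (by decide +kernel) (by decide +kernel) (by decide +kernel)
  have h3 : (List.formPerm [4, 6, 8, 7, 5] : Perm (Fin 11)) ∈ cj σ K :=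
    (hK.conj σ).five h1 (by decide +kernel) (by decide +kernel) (by decide +kernel)
  have h4 := (cj σ K).mul_mem h2 h3
  rw [mem_cj] at h4
  refine alt_le hK h4 ?_
  rw [Perm.card_support_conj]
  decide +kernel

theorem two_four {K : Subgroup (Perm (Fin 11))} (hK : PG K) {g : Perm (Fin 11)} (hg : g ∈ K) (hg2 : g * g = 1)
    (hg4 : g.support.card = 8) : alternatingGroup (Fin 11) ≤ K := by
  obtain ⟨σ, hσ⟩ := invol_conj (t := (swap 0 1 * swap 2 3 * swap 4 5 * swap 6 7 : Perm (Fin 11))) hg2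
    (by decide +kernel) (by rw [hg4]; decide +kernel) (by decide +kernel)
  have h1 : (swap 0 1 * swap 2 3 * swap 4 5 * swap 6 7 : Perm (Fin 11)) ∈ cj σ K := by rw [mem_cj, hσ]; exact hg
  obtain ⟨i, j, hij, h2⟩ := (hK.conj σ) _ h1 (by decide +kernel)
    (fun i => ![1, swap 0 1 * swap 2 3, swap 0 1 * swap 4 5, swap 0 1 * swap 6 7, swap 0 1 * swap 8 9] i)
    (by decide +kernel) (by decide +kernel)
  have h3 : ∀ i j : Fin 5, i < j →
      ((![1, swap 0 1 * swap 2 3, swap 0 1 * swap 4 5, swap 0 1 * swap 6 7, swap 0 1 * swap 8 9] : Fin 5 → Perm (Fin 11)) i)⁻¹ *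
      (![1, swap 0 1 * swap 2 3, swap 0 1 * swap 4 5, swap 0 1 * swap 6 7, swap 0 1 * swap 8 9] : Fin 5 → Perm (Fin 11)) j *
      (((![1, swap 0 1 * swap 2 3, swap 0 1 * swap 4 5, swap 0 1 * swap 6 7, swap 0 1 * swap 8 9] : Fin 5 → Perm (Fin 11)) i)⁻¹ *
      (![1, swap 0 1 * swap 2 3, swap 0 1 * swap 4 5, swap 0 1 * swap 6 7, swap 0 1 * swap 8 9] : Fin 5 → Perm (Fin 11)) j) = 1 ∧
      (((![1, swap 0 1 * swap 2 3, swap 0 1 * swap 4 5, swap 0 1 * swap 6 7, swap 0 1 * swap 8 9] : Fin 5 → Perm (Fin 11)) i)⁻¹ *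
      (![1, swap 0 1 * swap 2 3, swap 0 1 * swap 4 5, swap 0 1 * swap 6 7, swap 0 1 * swap 8 9] : Fin 5 → Perm (Fin 11)) j).support.card = 4 := by
    decide +kernel
  obtain ⟨h4, h5⟩ := h3 i j hij
  rw [mem_cj] at h2
  refine two_two hK h2 ?_ ?_
  · have : ∀ u : Perm (Fin 11), u * u = 1 → σ * u * σ⁻¹ * (σ * u * σ⁻¹) = 1 := by
      intro u hu
      calc σ * u * σ⁻¹ * (σ * u * σ⁻¹) = σ * (u * u) * σ⁻¹ := by group
        _ = 1 := by rw [hu]; group
    exact this _ h4
  · rw [Perm.card_support_conj]; exact h5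

end N11

end Cfsg.Agent.H546.Fx
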