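import Cfsg.Agent.H546.Fx.AltMain
import Cfsg.Agent.LargeExtra.W2.LFour.PslFacts

/-!
# Fixity 4 for `PSL(4, 3)`: the matrix rules (task 2042, for S3002)
-/

set_option autoImplicit false
set_option maxRecDepth 10000

namespace Cfsg.Agent.H546.Fx.Psl

open Matrix Cfsg.Agent.H254.Ev

abbrev M := Matrix (Fin 4) (Fin 4) (ZMod 3)

/-- the rules for the set of matrices lying over a subgroup of `PSL(4, 3)` of fixity at most 4 -/
structure PK (K : Set M) : Prop where
  one : (1 : M) ∈ K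
  neg : (-1 : M) ∈ K
  mul : ∀ {a b : M}, a ∈ K → b ∈ K → a * b ∈ K
  inv : ∀ {a b : M}, a ∈ K → a * b = 1 → b ∈ K
  pig : ∀ x ∈ K, x ≠ 1 → x ≠ -1 → ∀ c c' : Fin 5 → M, (∀ i, c' i * c i = 1) → (∀ i, (c i).det = 1) →
    (∀ i, c i * x = x * c i) → ∃ i j, i < j ∧ c' i * c j ∈ K
  thirteen : ∀ x : Fin 3 → M, (∀ i, x i ∈ K) → x 0 ≠ 1 → x 0 ≠ -1 → ∀ z z' : M, z * z' = 1 → z ^ 13 = 1 →
    (∀ i, ∃ a b c : Fin 3, z * x i * z' = x 0 ^ (a : ℕ) * x 1 ^ (b : ℕ) * x 2 ^ (c : ℕ)) → z ∈ K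

abbrev SL4 := SpecialLinearGroup (Fin 4) (ZMod 3)
abbrev PSL4 := Matrix.ProjectiveSpecialLinearGroup (Fin 4) (ZMod 3)

/-- the matrix of an element -/
def toM (g : SL4) : M := g.1

/-- an element with a given matrix -/
def mkSL (m : M) (h : m.det = 1) : SL4 := ⟨m, h⟩

/-- the projection -/
def pr : SL4 →* PSL4 := QuotientGroup.mk' _

theorem toM_mkSL (m : M) (h : m.det = 1) : toM (mkSL m h) = m := rfl
theorem toM_one : toM 1 = 1 := rfl
theorem toM_mul (g h : SL4) : toM (g * h) = toM g * toM h := rfl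
theorem toM_inj {g h : SL4} (e : toM g = toM h) : g = h := Subtype.ext e
theorem det_toM (g : SL4) : (toM g).det = 1 := g.2

theorem toM_pow (g : SL4) (n : ℕ) : toM (g ^ n) = toM g ^ n := by
  induction n with
  | zero => rw [pow_zero, pow_zero]; rfl
  | succ n ih => rw [pow_succ, pow_succ, toM_mul, ih]

theorem toM_inv {g : SL4} {b : M} (h : toM g * b = 1) : toM g⁻¹ = b := by
  have h1 : toM g⁻¹ * toM g = 1 := by rw [← toM_mul, inv_mul_cancel, toM_one]
  calc toM g⁻¹ = toM g⁻¹ * (toM g * b) := by rw [h, mul_one]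
    _ = b := by rw [← mul_assoc, h1, one_mul]

/-- the matrices over a subgroup -/
def Km (H : Subgroup PSL4) : Set M := {m | ∃ g : SL4, toM g = m ∧ pr g ∈ H}

theorem scalar_neg_one : (scalar (Fin 4) (-1 : ZMod 3) : M) = -1 := by decide +kernel

theorem center_iff (g : SL4) : g ∈ Subgroup.center SL4 ↔ toM g = 1 ∨ toM g = -1 := by
  rw [Matrix.SpecialLinearGroup.mem_center_iff]
  constructor
  · rintro ⟨r, hr1, hr2⟩
    have key : ∀ r : ZMod 3, r ^ 4 = 1 → r = 1 ∨ r = -1 := by decide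
    have hr2' : scalar (Fin 4) r = toM g := hr2
    rcases key r hr1 with h | h
    · left; rw [← hr2', h]; simp
    · right; rw [← hr2', h]; exact scalar_neg_one
  · rintro (h | h)
    · exact ⟨1, by simp, by rw [map_one]; exact h.symm⟩
    · exact ⟨-1, by decide, by rw [scalar_neg_one]; exact h.symm⟩

theorem pr_eq_one (g : SL4) : pr g = 1 ↔ toM g = 1 ∨ toM g = -1 := by
  rw [← center_iff]
  exact QuotientGroup.eq_one_iff g

theorem pr_surj (x : PSL4) : ∃ g, pr g = x := QuotientGroup.mk'_surjective _ x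

theorem det_of_pow_odd {z : M} {n : ℕ} (hn : Odd n) (h : z ^ n = 1) : z.det = 1 := by
  have h1 := congrArg Matrix.det h
  rw [Matrix.det_pow, Matrix.det_one] at h1
  have key : ∀ d : ZMod 3, d = 0 ∨ d = 1 ∨ d = -1 := by decide
  rcases key z.det with h2 | h2 | h2
  · rw [h2, zero_pow (by rintro rfl; exact absurd hn (by decide))] at h1
    exact absurd h1 (by decide)
  · exact h2
  · rw [h2, hn.neg_one_pow] at h1
    exact absurd h1 (by decide)

theorem det_neg_one : ((-1 : M)).det = 1 := by decide +kernel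

theorem PK_pig {H : Subgroup PSL4} (hH : FixLE 4 H) : ∀ x ∈ Km H, x ≠ 1 → x ≠ -1 → ∀ c c' : Fin 5 → M,
    (∀ i, c' i * c i = 1) → (∀ i, (c i).det = 1) →
    (∀ i, c i * x = x * c i) → ∃ i j, i < j ∧ c' i * c j ∈ Km H := by
  rintro _ ⟨g, rfl, hg⟩ h1 h2 c c' hc hd hcm
  have hg1 : pr g ≠ 1 := by
    intro h
    rcases (pr_eq_one g).1 h with h | h
    · exact h1 h
    · exact h2 h
  obtain ⟨i, j, hij, hh⟩ := pigeon hH hg hg1 (fun i => pr (mkSL (c i) (hd i))) (fun i => by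
    rw [← map_mul, ← map_mul]
    congr 1
    exact toM_inj (hcm i))
  refine ⟨i, j, hij, (mkSL (c i) (hd i))⁻¹ * mkSL (c j) (hd j), ?_, ?_⟩
  · rw [toM_mul, toM_mkSL, toM_inv (g := mkSL (c i) (hd i)) (b := c' i) (mul_eq_one_comm.1 (hc i))]
  · rw [map_mul, map_inv]; exact hh

theorem PK_thirteen {H : Subgroup PSL4} (hH : FixLE 4 H) : ∀ x : Fin 3 → M, (∀ i, x i ∈ Km H) → x 0 ≠ 1 → x 0 ≠ -1 →
    ∀ z z' : M, z * z' = 1 → z ^ 13 = 1 →
    (∀ i, ∃ a b c : Fin 3, z * x i * z' = x 0 ^ (a : ℕ) * x 1 ^ (b : ℕ) * x 2 ^ (c : ℕ)) → z ∈ Km H := by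
  intro x hx h1 h2 z z' hz hz13 hzx
  have hdz := det_of_pow_odd (n := 13) (by decide) hz13
  choose g hg hgH using hx
  obtain ⟨y, hy⟩ : ∃ y : SL4, toM y = z := ⟨mkSL z hdz, rfl⟩
  have hyi : toM y⁻¹ = z' := toM_inv (by rw [hy]; exact hz)
  refine ⟨y, hy, ?_⟩
  have hg0 : pr (g 0) ≠ 1 := by
    intro h
    rcases (pr_eq_one (g 0)).1 h with h | h
    · exact h1 (by rw [← hg, h])
    · exact h2 (by rw [← hg, h])
  by_cases hy1 : pr y = 1
  · rw [hy1]; exact H.one_mem
  let S : Set PSL4 := Set.range (fun i => pr (g i))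
  have hS : ∀ i, pr (g i) ∈ Subgroup.closure S := fun i => Subgroup.subset_closure ⟨i, rfl⟩
  have hSH : Subgroup.closure S ≤ H := by
    rw [Subgroup.closure_le]
    rintro _ ⟨i, rfl⟩
    exact hgH i
  refine hH.mem_of_prime le_rfl (X := Subgroup.closure S) hSH ?_ ?_ (r := 13) (by norm_num) (by norm_num) ?_
  · intro h
    have := hS 0
    rw [h, Subgroup.mem_bot] at this
    exact hg0 this
  · apply mem_normalizer_closure
    rintro _ ⟨i, rfl⟩
    obtain ⟨a, b, c, habc⟩ := hzx i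
    have h3 : y * g i * y⁻¹ = g 0 ^ (a : ℕ) * g 1 ^ (b : ℕ) * g 2 ^ (c : ℕ) := by
      apply toM_inj
      rw [toM_mul, toM_mul, toM_mul, toM_mul, toM_pow, toM_pow, toM_pow, hyi, hy, hg, hg, hg, hg]
      exact habc
    have h4 : pr y * pr (g i) * (pr y)⁻¹ = pr (y * g i * y⁻¹) := by rw [map_mul, map_mul, map_inv]
    rw [h4, h3, map_mul, map_mul, map_pow, map_pow, map_pow]
    exact mul_mem (mul_mem (pow_mem (hS 0) _) (pow_mem (hS 1) _)) (pow_mem (hS 2) _)
  · have : Fact (Nat.Prime 13) := ⟨by norm_num⟩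
    refine orderOf_eq_prime ?_ hy1
    have h3 : y ^ 13 = 1 := by
      apply toM_inj
      rw [toM_pow, hy]; exact hz13
    rw [← map_pow, h3, map_one]

theorem PK_of {H : Subgroup PSL4} (hH : FixLE 4 H) : PK (Km H) where
  one := ⟨1, rfl, H.one_mem⟩
  neg := by
    refine ⟨mkSL (-1) det_neg_one, rfl, ?_⟩
    rw [(pr_eq_one _).2 (Or.inr rfl)]; exact H.one_mem
  mul := by
    rintro _ _ ⟨g, rfl, hg⟩ ⟨h, rfl, hh⟩
    exact ⟨g * h, rfl, by rw [map_mul]; exact H.mul_mem hg hh⟩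
  inv := by
    rintro _ b ⟨g, rfl, hg⟩ hb
    exact ⟨g⁻¹, toM_inv hb, by rw [map_inv]; exact H.inv_mem hg⟩
  pig := PK_pig hH
  thirteen := PK_thirteen hH

/-- conjugation by an invertible matrix -/
def cjM (P P' : M) (K : Set M) : Set M := {m | P * m * P' ∈ K}

theorem mem_cjM {P P' m : M} {K : Set M} : m ∈ cjM P P' K ↔ P * m * P' ∈ K := Iff.rfl

theorem cj_mul {P P' : M} (h' : P' * P = 1) (a b : M) : P * (a * b) * P' = (P * a * P') * (P * b * P') := by
  calc P * (a * b) * P' = P * a * (1 : M) * b * P' := by rw [mul_one]; simp only [mul_assoc]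
    _ = P * a * (P' * P) * b * P' := by rw [h']
    _ = _ := by simp only [mul_assoc]

theorem cj_pow {P P' : M} (h : P * P' = 1) (h' : P' * P = 1) (a : M) (n : ℕ) : P * a ^ n * P' = (P * a * P') ^ n := by
  induction n with
  | zero => simp [h]
  | succ n ih => rw [pow_succ, cj_mul h', ih, pow_succ]

theorem cj_inj {P P' : M} (h' : P' * P = 1) {a b : M} (hab : P * a * P' = P * b * P') : a = b := by
  have h1 := congrArg (fun z => P' * z * P) hab
  have h2 : ∀ a : M, P' * (P * a * P') * P = a := by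
    intro a
    calc P' * (P * a * P') * P = (P' * P) * a * (P' * P) := by simp only [mul_assoc]
      _ = a := by rw [h', one_mul, mul_one]
  simp only [h2] at h1
  exact h1

theorem PK.conj {K : Set M} (hK : PK K) {P P' : M} (h : P * P' = 1) : PK (cjM P P' K) := by
  have h' : P' * P = 1 := mul_eq_one_comm.1 h
  have hne : ∀ x : M, x ≠ 1 → P * x * P' ≠ 1 := by
    intro x hx h1
    apply hx
    apply cj_inj h'
    rw [h1, mul_one, h]
  have hneg : P * (-1 : M) * P' = -1 := by rw [mul_neg, mul_one, neg_mul, h]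
  have hne' : ∀ x : M, x ≠ -1 → P * x * P' ≠ -1 := by
    intro x hx h1
    apply hx
    apply cj_inj h'
    rw [h1, hneg]
  refine ⟨?_, ?_, ?_, ?_, ?_, ?_⟩
  · rw [mem_cjM, mul_one, h]; exact hK.one
  · rw [mem_cjM, hneg]; exact hK.neg
  · intro a b ha hb
    rw [mem_cjM, cj_mul h']; exact hK.mul ha hb
  · intro a b ha hab
    refine hK.inv ha ?_
    rw [← cj_mul h', hab, mul_one, h]
  · intro x hx h1 h2 c c' hc hd hcm
    obtain ⟨i, j, hij, hh⟩ := hK.pig _ hx (hne x h1) (hne' x h2) (fun i => P * c i * P') (fun i => P * c' i * P')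
      (fun i => by rw [← cj_mul h', hc, mul_one, h])
      (fun i => by
        have : P.det * P'.det = 1 := by rw [← det_mul, h, det_one]
        rw [det_mul, det_mul, hd, mul_one, this])
      (fun i => by rw [← cj_mul h', ← cj_mul h', hcm])
    exact ⟨i, j, hij, by rw [mem_cjM, cj_mul h']; exact hh⟩
  · intro x hx h1 h2 z z' hz hz13 hzx
    refine hK.thirteen (fun i => P * x i * P') hx (hne _ h1) (hne' _ h2) (P * z * P') (P * z' * P') ?_ ?_ ?_
    · rw [← cj_mul h', hz, mul_one, h]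
    · rw [← cj_pow h h', hz13, mul_one, h]
    · intro i
      obtain ⟨a, b, c, habc⟩ := hzx i
      refine ⟨a, b, c, ?_⟩
      rw [← cj_mul h', ← cj_mul h', habc, cj_mul h', cj_mul h', cj_pow h h', cj_pow h h', cj_pow h h']

/-- elements of order 5 -/
theorem PK.five {K : Set M} (hK : PK K) {x z : M} (hx : x ∈ K) (h1 : x ≠ 1) (h2 : x ≠ -1) (hz : z * x = x * z)
    (hz5 : z ^ 5 = 1) : z ∈ K := by
  have hcm : Commute z x := hz
  have hdz := det_of_pow_odd (n := 5) (by decide) hz5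
  obtain ⟨i, j, hij, hh⟩ := hK.pig x hx h1 h2 (fun i => z ^ (i : ℕ)) (fun i => z ^ (5 - (i : ℕ)))
    (fun i => by rw [← pow_add, Nat.sub_add_cancel i.2.le, hz5])
    (fun i => by rw [det_pow, hdz, one_pow]) (fun i => (hcm.pow_left i).eq)
  have h3 : z ^ (5 - (i : ℕ)) * z ^ (j : ℕ) = z ^ ((j : ℕ) - (i : ℕ)) := by
    have hle : (i : ℕ) ≤ j := hij.le
    have : 5 - (i : ℕ) + j = 5 + ((j : ℕ) - i) := by have := i.2; omega
    rw [← pow_add, this, pow_add, hz5, one_mul]
  simp only [h3] at hh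
  have hlt : (i : ℕ) < j := hij
  have hj5 := j.2
  obtain ⟨k, hk⟩ : ∃ k, k = (j : ℕ) - i := ⟨_, rfl⟩
  rw [← hk] at hh
  have hpow : ∀ n : ℕ, (z ^ k) ^ n ∈ K := by
    intro n
    induction n with
    | zero => rw [pow_zero]; exact hK.one
    | succ n ih => rw [pow_succ]; exact hK.mul ih hh
  have hk1 : 1 ≤ k := by omega
  have hk4 : k ≤ 4 := by omega
  interval_cases k
  · rwa [pow_one] at hh
  · have := hpow 3
    rw [← pow_mul] at this
    have e : z ^ (2 * 3) = z := by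
      calc z ^ (2 * 3) = z ^ 5 * z := by rw [← pow_succ]
        _ = z := by rw [hz5, one_mul]
    rwa [e] at this
  · have := hpow 2
    rw [← pow_mul] at this
    have e : z ^ (3 * 2) = z := by
      calc z ^ (3 * 2) = z ^ 5 * z := by rw [← pow_succ]
        _ = z := by rw [hz5, one_mul]
    rwa [e] at this
  · have := hpow 4
    rw [← pow_mul] at this
    have e : z ^ (4 * 4) = z := by
      calc z ^ (4 * 4) = (z ^ 5) ^ 3 * z := by rw [← pow_mul, ← pow_succ]
        _ = z := by rw [hz5, one_pow, one_mul]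
    rwa [e] at this

end Cfsg.Agent.H546.Fx.Psl
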